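import Cfsg.Agent.Helper89.LabeledTable

/-!
# Three generators and their inverses as six symbols (helper89)

`gens3 a b c` is the symbol table `a, a⁻¹, b, b⁻¹, c, c⁻¹` used with the coset table checkers
`CT2` and `LT`, together with general lemmas on `ev`.
-/

set_option autoImplicit false

namespace Cfsg.Agent.Helper89

section
variable {G G' : Type*} [Group G] [Group G']

/-- Six symbols from three group elements and their inverses. -/
def gens3 (a b c : G) (j : ℕ) : G :=
  if j = 0 then a else if j = 1 then a⁻¹ else if j = 2 then b else if j = 3 then b⁻¹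
  else if j = 4 then c else if j = 5 then c⁻¹ else 1

theorem iv_eq (j : ℕ) : CT2.iv j = if j % 2 = 0 then j + 1 else j - 1 := by
  unfold CT2.iv
  split
  · rename_i h
    exact Nat.xor_one_of_even (Nat.even_iff.2 h)
  · rename_i h
    exact Nat.xor_one_of_odd (Nat.odd_iff.2 (by omega))

theorem gens3_of_ge (a b c : G) {j : ℕ} (h : 6 ≤ j) : gens3 a b c j = 1 := by
  unfold gens3
  rw [if_neg (by omega), if_neg (by omega), if_neg (by omega), if_neg (by omega),
    if_neg (by omega), if_neg (by omega)]

theorem gens3_inv (a b c : G) (j : ℕ) : gens3 a b c j * gens3 a b c (CT2.iv j) = 1 := by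
  by_cases h : j < 6
  · interval_cases j <;> simp [gens3, CT2.iv]
  · have h6 : 6 ≤ CT2.iv j := by
      rw [iv_eq]; split <;> omega
    rw [gens3_of_ge a b c (by omega : 6 ≤ j), gens3_of_ge a b c h6, one_mul]

theorem map_gens3 (f : G →* G') (a b c : G) (j : ℕ) :
    f (gens3 a b c j) = gens3 (f a) (f b) (f c) j := by
  unfold gens3
  split_ifs <;> simp

theorem map_ev (f : G →* G') (g : ℕ → G) (w : List ℕ) :
    f (ev g w) = ev (fun j => f (g j)) w := by
  induction w with
  | nil => simp [ev]
  | cons j w ih => simp [ev, ih]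

theorem ev_congr {g g' : ℕ → G} (h : ∀ j, g j = g' j) (w : List ℕ) : ev g w = ev g' w := by
  have : g = g' := funext h
  rw [this]

theorem ev_mem (K : Subgroup G) (g : ℕ → G) (h : ∀ j, g j ∈ K) (w : List ℕ) : ev g w ∈ K := by
  induction w with
  | nil => simp [ev]
  | cons j w ih => exact K.mul_mem (h j) ih

theorem gens3_mem (K : Subgroup G) {a b c : G} (ha : a ∈ K) (hb : b ∈ K) (hc : c ∈ K) (j : ℕ) :
    gens3 a b c j ∈ K := by
  unfold gens3
  split_ifs
  · exact ha
  · exact K.inv_mem ha
  · exact hb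
  · exact K.inv_mem hb
  · exact hc
  · exact K.inv_mem hc
  · exact K.one_mem

theorem ev_prod (g₁ : ℕ → G) (g₂ : ℕ → G') (w : List ℕ) :
    ev (fun j => (g₁ j, g₂ j)) w = (ev g₁ w, ev g₂ w) := by
  induction w with
  | nil => simp [ev]; rfl
  | cons j w ih => simp [ev, ih]

theorem gens3_prod (a₁ b₁ c₁ : G) (a₂ b₂ c₂ : G') (j : ℕ) :
    gens3 (a₁, a₂) (b₁, b₂) (c₁, c₂) j = (gens3 a₁ b₁ c₁ j, gens3 a₂ b₂ c₂ j) := by
  unfold gens3
  split_ifs <;> rfl

theorem closure_gens3 (a b c : G) :
    Subgroup.closure (gens3 a b c '' Set.Iio 6) = Subgroup.closure {a, b, c} := by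
  apply le_antisymm
  · rw [Subgroup.closure_le]
    rintro _ ⟨j, -, rfl⟩
    exact gens3_mem _ (Subgroup.subset_closure (by simp)) (Subgroup.subset_closure (by simp))
      (Subgroup.subset_closure (by simp)) j
  · rw [Subgroup.closure_le]
    intro x hx
    rcases hx with rfl | rfl | rfl
    · exact Subgroup.subset_closure ⟨0, by simp, by simp [gens3]⟩
    · exact Subgroup.subset_closure ⟨2, by simp, by simp [gens3]⟩
    · exact Subgroup.subset_closure ⟨4, by simp, by simp [gens3]⟩

end

end Cfsg.Agent.Helper89
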