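import Cfsg.Agent.Helper89.CosetTable2

/-!
# Labelled coset table certificates (helper89)

A verified checker for coset tables "with central labels": the relators of a presentation are only
known to evaluate to central involutions (`ev g ρ = ζ μ`, where `ζ` turns a bit mask into a
product of central involutions), as happens for the lifts of the relators of a group `S` to a
central extension of `S` by an elementary abelian 2-group.  Every edge of the table carries a
mask.  From a certificate one gets

* `LT.card_dvd`: the order of the group generated by the `g j` divides `n * Nat.card H'` for every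
  subgroup `H'` containing `H` and all `ζ a`;
* `LT.close_mem`: a relator that closes up at a coset with total mask `ν` shows `ζ ν ∈ H`
  (so `ζ ν = 1` when `H` has odd order): a linear dependency between the central involutions.
-/

set_option autoImplicit false

namespace Cfsg.Agent.Helper89

namespace LT

open CT2

section defs

/-- The product of the `z i`, `i < m`, selected by the bits of `a`. -/
def zv {G : Type*} [Monoid G] (z : ℕ → G) : ℕ → ℕ → G
  | 0, _ => 1
  | m + 1, a => zv z m a * (if a.testBit m then z m else 1)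

/-- Follow a word through established edges, collecting the masks. -/
def walkL (T Lb : ℕ → ℕ → ℕ) (k E : ℕ) : ℕ → ℕ → List ℕ → Option (ℕ × ℕ)
  | c, a, [] => some (c, a)
  | c, a, j :: w =>
    if j < k && E.testBit (c * k + j) then walkL T Lb k E (T c j) (a ^^^ Lb c j) w else none

/-- One deduction step `(c₀, relator index, gap position)`. -/
def stepChk (T Lb : ℕ → ℕ → ℕ) (k : ℕ) (rels : List (List ℕ × ℕ)) (E : ℕ) (s : ℕ × ℕ × ℕ) :
    Option ℕ :=
  match ((rels.getD s.2.1 ([], 0)).1).drop s.2.2 with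
  | [] => none
  | j :: post =>
    match walkL T Lb k E s.1 0 (((rels.getD s.2.1 ([], 0)).1).take s.2.2),
        walkL T Lb k E s.1 0 (invw post) with
    | some (f, lf), some (b, lb) =>
      if j < k && iv j < k && T f j == b && T b (iv j) == f
          && Lb f j == (lf ^^^ (rels.getD s.2.1 ([], 0)).2) ^^^ lb
          && Lb b (iv j) == (lf ^^^ (rels.getD s.2.1 ([], 0)).2) ^^^ lb then
        some (E ||| (1 <<< (f * k + j)) ||| (1 <<< (b * k + iv j)))
      else none
    | _, _ => none

def runSteps (T Lb : ℕ → ℕ → ℕ) (k : ℕ) (rels : List (List ℕ × ℕ)) :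
    ℕ → List (ℕ × ℕ × ℕ) → Option ℕ
  | E, [] => some E
  | E, s :: ss =>
    match stepChk T Lb k rels E s with
    | some E' => runSteps T Lb k rels E' ss
    | none => none

def treeChk (T Lb : ℕ → ℕ → ℕ) (par gam : ℕ → ℕ) (k : ℕ) : ℕ → List ℕ → Option ℕ
  | E, [] => some E
  | E, c :: cs =>
    if par c < c && gam c < k && iv (gam c) < k && T (par c) (gam c) == c
        && T c (iv (gam c)) == par c && Lb (par c) (gam c) == 0 && Lb c (iv (gam c)) == 0 then
      treeChk T Lb par gam k
        (E ||| (1 <<< (par c * k + gam c)) ||| (1 <<< (c * k + iv (gam c)))) cs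
    else none

def loopChk (T Lb : ℕ → ℕ → ℕ) (k : ℕ) : ℕ → List ℕ → Option ℕ
  | E, [] => some E
  | E, j :: js =>
    if j < k && T 0 j == 0 && Lb 0 j == 0 then loopChk T Lb k (E ||| (1 <<< (0 * k + j))) js
    else none

/-- The prefix of the check: table, subgroup generators, spanning tree. -/
def preChk (n k : ℕ) (T Lb : ℕ → ℕ → ℕ) (par gam : ℕ → ℕ) (S : List ℕ) : Option ℕ :=
  if CT2.tableOK n k T then
    match loopChk T Lb k 0 S with
    | none => none
    | some E₁ => treeChk T Lb par gam k E₁ (List.range' 1 (n - 1))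
  else none

/-- Follow a word through the complete table, collecting the masks. -/
def walkA (T Lb : ℕ → ℕ → ℕ) (k n : ℕ) : ℕ → ℕ → List ℕ → Option (ℕ × ℕ)
  | c, a, [] => some (c, a)
  | c, a, j :: w =>
    if j < k && c < n then walkA T Lb k n (T c j) (a ^^^ Lb c j) w else none

/-- A closing scan `(c₀, relator index)`: the relator closes up at `c₀`; returns the mask
of the resulting dependency. -/
def closeChk (T Lb : ℕ → ℕ → ℕ) (k n : ℕ) (rels : List (List ℕ × ℕ)) (s : ℕ × ℕ) : Option ℕ :=
  match walkA T Lb k n s.1 0 (rels.getD s.2 ([], 0)).1 with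
  | some (c', a) => if c' == s.1 then some (a ^^^ (rels.getD s.2 ([], 0)).2) else none
  | none => none

end defs

section zvlemmas

variable {G : Type*} [Group G]

theorem zv_comm (z : ℕ → G) (hzc : ∀ i x, z i * x = x * z i) (m a : ℕ) (x : G) :
    zv z m a * x = x * zv z m a := by
  induction m with
  | zero => simp [zv]
  | succ m ih =>
    simp only [zv]
    split
    · rw [mul_assoc, hzc, ← mul_assoc, ih, mul_assoc]
    · rw [mul_one, ih]

theorem zv_xor (z : ℕ → G) (hzc : ∀ i x, z i * x = x * z i) (hzs : ∀ i, z i * z i = 1)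
    (m a b : ℕ) : zv z m (a ^^^ b) = zv z m a * zv z m b := by
  induction m with
  | zero => simp [zv]
  | succ m ih =>
    simp only [zv, ih, Nat.testBit_xor]
    have hc := zv_comm z hzc m b
    cases ha : a.testBit m <;> cases hb : b.testBit m
    · simp
    · simp [mul_assoc]
    · simp only [Bool.xor_false, if_true, Bool.false_eq_true, if_false, mul_one]
      rw [mul_assoc, mul_assoc, hc]
    · simp only [Bool.xor_self, Bool.false_eq_true, if_false, mul_one, if_true]
      have e : zv z m a * z m * (zv z m b * z m) = zv z m a * zv z m b * (z m * z m) := by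
        rw [mul_assoc (zv z m a), ← mul_assoc (z m), hzc m (zv z m b)]
        simp only [mul_assoc]
      rw [e, hzs, mul_one]

end zvlemmas

section sound

variable {G : Type*} [Group G]

/-- The data of a labelling map: masks go to central involutions, xor to products. -/
structure IsLabel (ζ : ℕ → G) : Prop where
  mul : ∀ a b, ζ (a ^^^ b) = ζ a * ζ b
  comm : ∀ a x, ζ a * x = x * ζ a

theorem isLabel_zv (z : ℕ → G) (hzc : ∀ i x, z i * x = x * z i) (hzs : ∀ i, z i * z i = 1)
    (m : ℕ) : IsLabel (zv z m) :=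
  ⟨zv_xor z hzc hzs m, zv_comm z hzc m⟩

theorem IsLabel.zero {ζ : ℕ → G} (h : IsLabel ζ) : ζ 0 = 1 := by
  have := h.mul 0 0
  rw [Nat.xor_self] at this
  exact (mul_eq_left.1 this.symm)

theorem IsLabel.sq {ζ : ℕ → G} (h : IsLabel ζ) (a : ℕ) : ζ a * ζ a = 1 := by
  rw [← h.mul, Nat.xor_self, h.zero]

theorem relH_central_mul {H : Subgroup G} {z u v : G} (hz : ∀ x, z * x = x * z)
    (h : RelH H u v) : RelH H (z * u) (z * v) := by
  unfold RelH at *
  have e : z * u * (z * v)⁻¹ = u * v⁻¹ := by
    calc z * u * (z * v)⁻¹ = z * (u * v⁻¹) * z⁻¹ := by group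
      _ = u * v⁻¹ * z * z⁻¹ := by rw [hz (u * v⁻¹)]
      _ = u * v⁻¹ := by group
  rwa [e]

/-- The invariant: every established edge is a true coset identity, up to its label. -/
def InvL (H : Subgroup G) (g : ℕ → G) (ζ : ℕ → G) (T Lb : ℕ → ℕ → ℕ) (r : ℕ → G) (k : ℕ)
    (E : ℕ) : Prop :=
  ∀ c j, j < k → E.testBit (c * k + j) = true → RelH H (r c * g j) (ζ (Lb c j) * r (T c j))

theorem invL_set {H : Subgroup G} {g ζ : ℕ → G} {T Lb : ℕ → ℕ → ℕ} {r : ℕ → G} {k E f j : ℕ}
    (hE : InvL H g ζ T Lb r k E) (hj : j < k)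
    (hgood : RelH H (r f * g j) (ζ (Lb f j) * r (T f j))) :
    InvL H g ζ T Lb r k (E ||| (1 <<< (f * k + j))) := by
  intro c j' hj' hbit
  rw [Nat.testBit_or, Bool.or_eq_true] at hbit
  rcases hbit with hbit | hbit
  · exact hE c j' hj' hbit
  · rw [Nat.one_shiftLeft, Nat.testBit_two_pow, decide_eq_true_eq] at hbit
    obtain ⟨rfl, rfl⟩ := idx_inj hj hj' hbit
    exact hgood

theorem invL_zero (H : Subgroup G) (g ζ : ℕ → G) (T Lb : ℕ → ℕ → ℕ) (r : ℕ → G) (k : ℕ) :
    InvL H g ζ T Lb r k 0 := by
  intro c j _ hbit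
  simp at hbit

theorem walkL_sound {H : Subgroup G} {g ζ : ℕ → G} (hζ : IsLabel ζ) {T Lb : ℕ → ℕ → ℕ}
    {r : ℕ → G} {k E : ℕ} (hE : InvL H g ζ T Lb r k E) :
    ∀ (w : List ℕ) (c a c' a' : ℕ), walkL T Lb k E c a w = some (c', a') →
      RelH H (ζ a * (r c * ev g w)) (ζ a' * r c') := by
  intro w
  induction w with
  | nil =>
    intro c a c' a' h
    simp only [walkL, Option.some.injEq, Prod.mk.injEq] at h
    obtain ⟨rfl, rfl⟩ := h
    simp only [ev, mul_one]
    exact relH_refl H _
  | cons j w ih =>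
    intro c a c' a' h
    simp only [walkL] at h
    split at h
    · rename_i hcond
      rw [Bool.and_eq_true, decide_eq_true_eq] at hcond
      have h1 := hE c j hcond.1 hcond.2
      have h2 := ih (T c j) (a ^^^ Lb c j) c' a' h
      have h3 := relH_central_mul (hζ.comm a) (h1.mul_right (ev g w))
      have e1 : ζ a * (r c * g j * ev g w) = ζ a * (r c * ev g (j :: w)) := by
        simp only [ev, mul_assoc]
      have e2 : ζ a * (ζ (Lb c j) * r (T c j) * ev g w) =
          ζ (a ^^^ Lb c j) * (r (T c j) * ev g w) := by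
        rw [hζ.mul]; simp only [mul_assoc]
      rw [e1, e2] at h3
      exact h3.trans h2
    · exact absurd h (by simp)

theorem ev_getD_lab {g ζ : ℕ → G} (hζ : IsLabel ζ) {rels : List (List ℕ × ℕ)}
    (hrel : ∀ ρ ∈ rels, ev g ρ.1 = ζ ρ.2) (i : ℕ) :
    ev g (rels.getD i ([], 0)).1 = ζ (rels.getD i ([], 0)).2 := by
  rw [List.getD_eq_getElem?_getD]
  cases h : rels[i]? with
  | none => simp [ev, hζ.zero]
  | some ρ => simpa using hrel ρ (List.mem_of_getElem? h)

theorem step_sound {H : Subgroup G} {g ζ : ℕ → G} (hζ : IsLabel ζ)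
    (hinv : ∀ j, g j * g (iv j) = 1) {T Lb : ℕ → ℕ → ℕ} {r : ℕ → G} {k : ℕ}
    {rels : List (List ℕ × ℕ)} (hrel : ∀ ρ ∈ rels, ev g ρ.1 = ζ ρ.2) {E E' : ℕ}
    (hE : InvL H g ζ T Lb r k E) (s : ℕ × ℕ × ℕ) (h : stepChk T Lb k rels E s = some E') :
    InvL H g ζ T Lb r k E' := by
  unfold stepChk at h
  split at h
  · exact absurd h (by simp)
  · rename_i j post hdrop
    split at h
    · rename_i f lf b lb hf hb
      split at h
      · rename_i hcond
        simp only [Bool.and_eq_true, decide_eq_true_eq, beq_iff_eq] at hcond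
        obtain ⟨⟨⟨⟨⟨hj, hj'⟩, hTf⟩, hTb⟩, hLf⟩, hLb⟩ := hcond
        simp only [Option.some.injEq] at h
        subst h
        have hρ := ev_getD_lab hζ hrel s.2.1
        have hsplit : (rels.getD s.2.1 ([], 0)).1 =
            ((rels.getD s.2.1 ([], 0)).1).take s.2.2 ++ j :: post := by
          rw [← hdrop, List.take_append_drop]
        have hprod : ev g (((rels.getD s.2.1 ([], 0)).1).take s.2.2) * g j =
            ζ (rels.getD s.2.1 ([], 0)).2 * (ev g post)⁻¹ := by
          rw [hsplit, ev_append] at hρ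
          simp only [ev] at hρ
          rw [← mul_assoc] at hρ
          rw [← hρ]; group
        have h1 := walkL_sound hζ hE _ _ _ _ _ hf
        have h2 := walkL_sound hζ hE _ _ _ _ _ hb
        rw [ev_invw g hinv, hζ.zero, one_mul] at h2
        rw [hζ.zero, one_mul] at h1
        have h3 := h1.mul_right (g j)
        have e3 : r s.1 * ev g (((rels.getD s.2.1 ([], 0)).1).take s.2.2) * g j =
            ζ (rels.getD s.2.1 ([], 0)).2 * (r s.1 * (ev g post)⁻¹) := by
          rw [mul_assoc, hprod, ← mul_assoc, ← hζ.comm, mul_assoc]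
        rw [e3] at h3
        have h4 := relH_central_mul (hζ.comm (rels.getD s.2.1 ([], 0)).2) h2
        have h5 := relH_central_mul (hζ.comm lf) (h3.symm.trans h4)
        have e5 : ζ lf * (ζ lf * r f * g j) = r f * g j := by
          rw [← mul_assoc, ← mul_assoc, hζ.sq, one_mul]
        have e6 : ζ lf * (ζ (rels.getD s.2.1 ([], 0)).2 * (ζ lb * r b)) =
            ζ ((lf ^^^ (rels.getD s.2.1 ([], 0)).2) ^^^ lb) * r b := by
          rw [hζ.mul, hζ.mul]; simp only [mul_assoc]
        rw [e5, e6] at h5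
        have h6 := relH_central_mul
          (hζ.comm ((lf ^^^ (rels.getD s.2.1 ([], 0)).2) ^^^ lb))
          (h5.mul_right (g (iv j))).symm
        have e7 : r f * g j * g (iv j) = r f := by rw [mul_assoc, hinv, mul_one]
        have e8 : ζ ((lf ^^^ (rels.getD s.2.1 ([], 0)).2) ^^^ lb) *
            (ζ ((lf ^^^ (rels.getD s.2.1 ([], 0)).2) ^^^ lb) * r b * g (iv j)) =
            r b * g (iv j) := by
          rw [← mul_assoc, ← mul_assoc, hζ.sq, one_mul]
        rw [e7, e8] at h6
        refine invL_set (invL_set hE hj ?_) hj' ?_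
        · rw [hTf, hLf]; exact h5
        · rw [hTb, hLb]; exact h6
      · exact absurd h (by simp)
    · exact absurd h (by simp)

theorem run_sound {H : Subgroup G} {g ζ : ℕ → G} (hζ : IsLabel ζ)
    (hinv : ∀ j, g j * g (iv j) = 1) {T Lb : ℕ → ℕ → ℕ} {r : ℕ → G} {k : ℕ}
    {rels : List (List ℕ × ℕ)} (hrel : ∀ ρ ∈ rels, ev g ρ.1 = ζ ρ.2) :
    ∀ (steps : List (ℕ × ℕ × ℕ)) (E E' : ℕ), InvL H g ζ T Lb r k E →
      runSteps T Lb k rels E steps = some E' → InvL H g ζ T Lb r k E' := by
  intro steps
  induction steps with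
  | nil =>
    intro E E' hE h
    simp only [runSteps, Option.some.injEq] at h
    subst h; exact hE
  | cons s ss ih =>
    intro E E' hE h
    simp only [runSteps] at h
    split at h
    · rename_i E'' hs
      exact ih E'' E' (step_sound hζ hinv hrel hE s hs) h
    · exact absurd h (by simp)

theorem runSteps_append (T Lb : ℕ → ℕ → ℕ) (k : ℕ) (rels : List (List ℕ × ℕ)) :
    ∀ (s₁ s₂ : List (ℕ × ℕ × ℕ)) (E E₁ E₂ : ℕ), runSteps T Lb k rels E s₁ = some E₁ →
      runSteps T Lb k rels E₁ s₂ = some E₂ → runSteps T Lb k rels E (s₁ ++ s₂) = some E₂ := by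
  intro s₁
  induction s₁ with
  | nil =>
    intro s₂ E E₁ E₂ h1 h2
    simp only [runSteps, Option.some.injEq] at h1
    subst h1
    simpa using h2
  | cons s ss ih =>
    intro s₂ E E₁ E₂ h1 h2
    simp only [runSteps, List.cons_append] at h1 ⊢
    split at h1
    · rename_i E' hs
      exact ih s₂ E' E₁ E₂ h1 h2
    · exact absurd h1 (by simp)

theorem tree_sound {H : Subgroup G} {g ζ : ℕ → G} (hζ : IsLabel ζ)
    (hinv : ∀ j, g j * g (iv j) = 1) {T Lb : ℕ → ℕ → ℕ} {par gam : ℕ → ℕ} {k : ℕ} :
    ∀ (cs : List ℕ) (E E' : ℕ), InvL H g ζ T Lb (rep g par gam) k E →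
      treeChk T Lb par gam k E cs = some E' →
      InvL H g ζ T Lb (rep g par gam) k E' ∧ ∀ c ∈ cs, par c < c ∧ gam c < k := by
  intro cs
  induction cs with
  | nil =>
    intro E E' hE h
    simp only [treeChk, Option.some.injEq] at h
    subst h; exact ⟨hE, by simp⟩
  | cons c cs ih =>
    intro E E' hE h
    simp only [treeChk] at h
    split at h
    · rename_i hcond
      simp only [Bool.and_eq_true, decide_eq_true_eq, beq_iff_eq] at hcond
      obtain ⟨⟨⟨⟨⟨⟨hpar, hgam⟩, hgam'⟩, hT1⟩, hT2⟩, hL1⟩, hL2⟩ := hcond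
      have hrep := rep_eq (g := g) (gam := gam) hpar
      have hE' : InvL H g ζ T Lb (rep g par gam) k
          (E ||| (1 <<< (par c * k + gam c)) ||| (1 <<< (c * k + iv (gam c)))) := by
        refine invL_set (invL_set hE hgam ?_) hgam' ?_
        · rw [hT1, hL1, hrep, hζ.zero, one_mul]; exact relH_refl H _
        · rw [hT2, hL2, hrep, mul_assoc, hinv, mul_one, hζ.zero, one_mul]; exact relH_refl H _
      obtain ⟨h1, h2⟩ := ih _ _ hE' h
      refine ⟨h1, ?_⟩
      intro c' hc'
      rcases List.mem_cons.1 hc' with rfl | hc'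
      · exact ⟨hpar, hgam⟩
      · exact h2 c' hc'
    · exact absurd h (by simp)

theorem loop_sound {H : Subgroup G} {g ζ : ℕ → G} (hζ : IsLabel ζ) {T Lb : ℕ → ℕ → ℕ}
    {r : ℕ → G} (hr0 : r 0 = 1) {k : ℕ} :
    ∀ (S : List ℕ) (E E' : ℕ), (∀ j ∈ S, g j ∈ H) → InvL H g ζ T Lb r k E →
      loopChk T Lb k E S = some E' → InvL H g ζ T Lb r k E' := by
  intro S
  induction S with
  | nil =>
    intro E E' _ hE h
    simp only [loopChk, Option.some.injEq] at h
    subst h; exact hE
  | cons j js ih =>
    intro E E' hS hE h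
    simp only [loopChk] at h
    split at h
    · rename_i hcond
      simp only [Bool.and_eq_true, decide_eq_true_eq, beq_iff_eq] at hcond
      refine ih _ _ (fun j' hj' => hS j' (List.mem_cons_of_mem _ hj'))
        (invL_set hE hcond.1.1 ?_) h
      rw [hcond.1.2, hcond.2, hr0, hζ.zero]
      unfold RelH
      simpa using hS j (List.mem_cons_self)
    · exact absurd h (by simp)

/-- What a successful check establishes. -/
structure Facts (H : Subgroup G) (g ζ : ℕ → G) (n k : ℕ) (T Lb : ℕ → ℕ → ℕ) (r : ℕ → G) :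
    Prop where
  tab : ∀ c < n, ∀ j < k, (T c j < n ∧ T (T c j) (iv j) = c) ∧ iv j < k
  good : ∀ c < n, ∀ j < k, RelH H (r c * g j) (ζ (Lb c j) * r (T c j))
  mem : ∀ c < n, r c ∈ Subgroup.closure (g '' Set.Iio k)

/-- Soundness of the checker. -/
theorem facts (g ζ : ℕ → G) (hζ : IsLabel ζ) (hinv : ∀ j, g j * g (iv j) = 1) (n k : ℕ)
    (T Lb : ℕ → ℕ → ℕ) (par gam : ℕ → ℕ) (S : List ℕ) (rels : List (List ℕ × ℕ))
    (steps : List (ℕ × ℕ × ℕ)) (E₀ : ℕ) (hpre : preChk n k T Lb par gam S = some E₀)
    (hrun : runSteps T Lb k rels E₀ steps = some (2 ^ (n * k) - 1))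
    (H : Subgroup G) (hS : ∀ j ∈ S, g j ∈ H) (hrel : ∀ ρ ∈ rels, ev g ρ.1 = ζ ρ.2) :
    Facts H g ζ n k T Lb (rep g par gam) := by
  unfold preChk at hpre
  split at hpre
  · rename_i htab
    split at hpre
    · exact absurd hpre (by simp)
    · rename_i E₁ hloop
      have hI1 : InvL H g ζ T Lb (rep g par gam) k E₁ :=
        loop_sound hζ (rep_zero g par gam) S 0 E₁ hS (invL_zero H g ζ T Lb _ k) hloop
      obtain ⟨hI0, hpg⟩ := tree_sound hζ hinv _ _ _ hI1 hpre
      have hI : InvL H g ζ T Lb (rep g par gam) k (2 ^ (n * k) - 1) :=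
        run_sound hζ hinv hrel steps _ _ hI0 hrun
      refine ⟨?_, ?_, ?_⟩
      · intro c hc j hj
        unfold CT2.tableOK at htab
        rw [List.all_eq_true] at htab
        have h1 := htab c (List.mem_range.2 hc)
        rw [List.all_eq_true] at h1
        have h2 := h1 j (List.mem_range.2 hj)
        simpa using h2
      · intro c hc j hj
        apply hI c j hj
        rw [Nat.testBit_two_pow_sub_one, decide_eq_true_eq]
        calc c * k + j < c * k + k := by omega
          _ = (c + 1) * k := by ring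
          _ ≤ n * k := Nat.mul_le_mul_right k hc
      · intro c
        induction c using Nat.strong_induction_on with
        | _ c ih =>
          intro hc
          rcases Nat.eq_zero_or_pos c with rfl | hpos
          · rw [rep_zero]; exact Subgroup.one_mem _
          · have hmem : c ∈ List.range' 1 (n - 1) := by
              rw [List.mem_range']
              refine ⟨c - 1, by omega, by omega⟩
            obtain ⟨h1, h2⟩ := hpg c hmem
            rw [rep_eq h1]
            exact Subgroup.mul_mem _ (ih _ h1 (by omega))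
              (Subgroup.subset_closure ⟨gam c, h2, rfl⟩)
  · exact absurd hpre (by simp)

/-- The counting theorem: the group generated by the `g j` has order dividing `n * |H'|` for
every subgroup `H'` that contains `H` and all central labels. -/
theorem card_dvd [Finite G] {H : Subgroup G} {g ζ : ℕ → G} {n k : ℕ} {T Lb : ℕ → ℕ → ℕ}
    {r : ℕ → G} (hinv : ∀ j, g j * g (iv j) = 1) (hF : Facts H g ζ n k T Lb r)
    (H' : Subgroup G) (hH : H ≤ H') (hζH : ∀ a, ζ a ∈ H')
    (hH' : H' ≤ Subgroup.closure (g '' Set.Iio k)) :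
    Nat.card (Subgroup.closure (g '' Set.Iio k)) ∣ n * Nat.card H' := by
  rcases Nat.eq_zero_or_pos n with rfl | hn
  · simp
  · have hiv : ∀ j < k, iv j < k := fun j hj => (hF.tab 0 hn j hj).2
    refine CT2.card_dvd_of_table H' _ k n g T r rfl hH' hinv hiv hF.mem
      (fun c hc j hj => (hF.tab c hc j hj).1.1) (fun c hc j hj => (hF.tab c hc j hj).1.2) ?_
    intro c hc j hj
    have h1 := hF.good c hc j hj
    unfold RelH at h1 ⊢
    have e : r c * g j * (r (T c j))⁻¹ =
        r c * g j * (ζ (Lb c j) * r (T c j))⁻¹ * ζ (Lb c j) := by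
      group
    rw [e]
    exact H'.mul_mem (hH h1) (hζH _)

theorem walkA_sound {H : Subgroup G} {g ζ : ℕ → G} (hζ : IsLabel ζ) {n k : ℕ}
    {T Lb : ℕ → ℕ → ℕ} {r : ℕ → G} (hF : Facts H g ζ n k T Lb r) :
    ∀ (w : List ℕ) (c a c' a' : ℕ), walkA T Lb k n c a w = some (c', a') →
      RelH H (ζ a * (r c * ev g w)) (ζ a' * r c') := by
  intro w
  induction w with
  | nil =>
    intro c a c' a' h
    simp only [walkA, Option.some.injEq, Prod.mk.injEq] at h
    obtain ⟨rfl, rfl⟩ := h
    simp only [ev, mul_one]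
    exact relH_refl H _
  | cons j w ih =>
    intro c a c' a' h
    simp only [walkA] at h
    split at h
    · rename_i hcond
      rw [Bool.and_eq_true, decide_eq_true_eq, decide_eq_true_eq] at hcond
      have h1 := hF.good c hcond.2 j hcond.1
      have h2 := ih (T c j) (a ^^^ Lb c j) c' a' h
      have h3 := relH_central_mul (hζ.comm a) (h1.mul_right (ev g w))
      have e1 : ζ a * (r c * g j * ev g w) = ζ a * (r c * ev g (j :: w)) := by
        simp only [ev, mul_assoc]
      have e2 : ζ a * (ζ (Lb c j) * r (T c j) * ev g w) =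
          ζ (a ^^^ Lb c j) * (r (T c j) * ev g w) := by
        rw [hζ.mul]; simp only [mul_assoc]
      rw [e1, e2] at h3
      exact h3.trans h2
    · exact absurd h (by simp)

/-- A closing scan gives a central label lying in `H`. -/
theorem close_mem {H : Subgroup G} {g ζ : ℕ → G} (hζ : IsLabel ζ) {n k : ℕ}
    {T Lb : ℕ → ℕ → ℕ} {r : ℕ → G} (hF : Facts H g ζ n k T Lb r)
    {rels : List (List ℕ × ℕ)} (hrel : ∀ ρ ∈ rels, ev g ρ.1 = ζ ρ.2) (s : ℕ × ℕ) (ν : ℕ)
    (h : closeChk T Lb k n rels s = some ν) : ζ ν ∈ H := by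
  unfold closeChk at h
  split at h
  · rename_i c' a hw
    split at h
    · rename_i hc
      rw [beq_iff_eq] at hc
      simp only [Option.some.injEq] at h
      subst h
      have h1 := walkA_sound hζ hF _ _ _ _ _ hw
      rw [hζ.zero, one_mul, ev_getD_lab hζ hrel, hc] at h1
      unfold RelH at h1
      have e : r s.1 * ζ (rels.getD s.2 ([], 0)).2 * (ζ a * r s.1)⁻¹ =
          ζ (a ^^^ (rels.getD s.2 ([], 0)).2) := by
        rw [hζ.mul, ← hζ.comm (rels.getD s.2 ([], 0)).2 (r s.1), mul_inv_rev,
          hζ.comm a (ζ (rels.getD s.2 ([], 0)).2)]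
        have hia : (ζ a)⁻¹ = ζ a := inv_eq_of_mul_eq_one_left (hζ.sq a)
        rw [hia]
        have := hζ.comm a (r s.1)⁻¹
        calc ζ (rels.getD s.2 ([], 0)).2 * r s.1 * ((r s.1)⁻¹ * ζ a)
            = ζ (rels.getD s.2 ([], 0)).2 * (r s.1 * (r s.1)⁻¹) * ζ a := by group
          _ = ζ (rels.getD s.2 ([], 0)).2 * ζ a := by rw [mul_inv_cancel, mul_one]
      rwa [e] at h1
    · exact absurd h (by simp)
  · exact absurd h (by simp)

end sound

end LT

end Cfsg.Agent.Helper89
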