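import Cfsg.Agent.Helper89.Gens3

/-!
# One level of a chain of labelled coset enumerations (helper89)

`Level.level`: let `g : ℕ → X` be a symbol table, `K` a central subgroup of exponent 2, `ex` a list
of relator words that hold exactly and `ws` a list of relator words whose values lie in `K`.
Given a labelled coset table certificate (with `n` rows) over the subgroup `H` generated by the
first `k₀` symbols, closing scans whose masks span all label bits, and `H ∩ K = 1`, all relators
of `ws` hold exactly and `|⟨g j, j < k⟩|` divides `n * |H|`.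

Also: list-based symbol tables `gl` and a few evaluation lemmas.
-/

set_option autoImplicit false

namespace Cfsg.Agent.Helper89

open Subgroup

section gl
variable {G G' : Type*} [Group G] [Group G']

/-- Symbols `2 i`, `2 i + 1` are the `i`-th element of the list and its inverse. -/
def gl (l : List G) (j : ℕ) : G :=
  if j % 2 = 0 then l.getD (j / 2) 1 else (l.getD (j / 2) 1)⁻¹

theorem gl_inv (l : List G) (j : ℕ) : gl l j * gl l (CT2.iv j) = 1 := by
  rw [iv_eq]
  unfold gl
  by_cases h : j % 2 = 0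
  · have h1 : (j + 1) % 2 ≠ 0 := by omega
    have h2 : (j + 1) / 2 = j / 2 := by omega
    rw [if_pos h, if_pos h, if_neg h1, h2, mul_inv_cancel]
  · have h1 : (j - 1) % 2 = 0 := by omega
    have h2 : (j - 1) / 2 = j / 2 := by omega
    rw [if_neg h, if_neg h, if_pos h1, h2, inv_mul_cancel]

theorem map_gl (f : G →* G') (l : List G) (j : ℕ) : f (gl l j) = gl (l.map f) j := by
  have h : ∀ i, f (l.getD i 1) = (l.map f).getD i 1 := by
    intro i
    rw [List.getD_eq_getElem?_getD, List.getD_eq_getElem?_getD, List.getElem?_map]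
    cases l[i]? <;> simp
  unfold gl
  split
  · exact h _
  · rw [map_inv, h]

theorem gl_mem (K : Subgroup G) (l : List G) (h : ∀ x ∈ l, x ∈ K) (j : ℕ) : gl l j ∈ K := by
  have h1 : ∀ i, l.getD i 1 ∈ K := by
    intro i
    rw [List.getD_eq_getElem?_getD]
    cases hi : l[i]? with
    | none => exact K.one_mem
    | some x => exact h x (List.mem_of_getElem? hi)
  unfold gl
  split
  · exact h1 _
  · exact K.inv_mem (h1 _)

theorem ev_replicate (g : ℕ → G) (j n : ℕ) : ev g (List.replicate n j) = g j ^ n := by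
  induction n with
  | zero => simp [ev]
  | succ n ih => rw [List.replicate_succ, ev, ih, pow_succ']

theorem ev_one (w : List ℕ) : ev (fun _ => (1 : G)) w = 1 := by
  induction w with
  | nil => rfl
  | cons j w ih => rw [ev, ih, one_mul]

end gl

namespace Level

/-- Label the words of a list by the successive bits `2 ^ i`. -/
def labW : ℕ → List (List ℕ) → List (List ℕ × ℕ)
  | _, [] => []
  | i, w :: ws => (w, 2 ^ i) :: labW (i + 1) ws

/-- The relator list: exact relators with mask `0`, then the others with one bit each. -/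
def relsOf (ex ws : List (List ℕ)) : List (List ℕ × ℕ) :=
  ex.map (fun w => (w, 0)) ++ labW 0 ws

theorem mem_labW (ws : List (List ℕ)) : ∀ (i : ℕ) (ρ : List ℕ × ℕ), ρ ∈ labW i ws →
    ∃ j, j < ws.length ∧ ρ = (ws.getD j [], 2 ^ (i + j)) := by
  induction ws with
  | nil => intro i ρ h; simp [labW] at h
  | cons w ws ih =>
    intro i ρ h
    simp only [labW, List.mem_cons] at h
    rcases h with rfl | h
    · exact ⟨0, by simp, by simp⟩
    · obtain ⟨j, hj, rfl⟩ := ih (i + 1) ρ h
      refine ⟨j + 1, by simp [hj], ?_⟩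
      simp only [List.getD_cons_succ]
      congr 2
      omega

/-- Xor of the masks of a list of closing scans. -/
def closeXor (T Lb : ℕ → ℕ → ℕ) (k n : ℕ) (rels : List (List ℕ × ℕ)) :
    List (ℕ × ℕ) → Option ℕ
  | [] => some 0
  | s :: ss =>
    match LT.closeChk T Lb k n rels s, closeXor T Lb k n rels ss with
    | some ν, some μ => some (ν ^^^ μ)
    | _, _ => none

/-- For every bit `i < m`, the `i`-th list of closing scans has total mask `2 ^ i`. -/
def closeAll (T Lb : ℕ → ℕ → ℕ) (k n : ℕ) (rels : List (List ℕ × ℕ))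
    (cl : List (List (ℕ × ℕ))) (m : ℕ) : Bool :=
  (List.range m).all (fun i => closeXor T Lb k n rels (cl.getD i []) == some (2 ^ i))

section
variable {X : Type*} [Group X]

theorem zv_two_pow (z : ℕ → X) (m i : ℕ) : LT.zv z m (2 ^ i) = if i < m then z i else 1 := by
  induction m with
  | zero => simp [LT.zv]
  | succ m ih =>
    rw [LT.zv, ih, Nat.testBit_two_pow]
    by_cases h1 : i < m
    · have h2 : ¬ i = m := by omega
      have h3 : i < m + 1 := by omega
      simp [h1, h2, h3]
    · by_cases h2 : i = m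
      · subst h2
        simp
      · have h3 : ¬ i < m + 1 := by omega
        simp [h1, h2, h3]

theorem zv_eq_one (z : ℕ → X) (m : ℕ) (h : ∀ i < m, z i = 1) (a : ℕ) : LT.zv z m a = 1 := by
  induction m with
  | zero => simp [LT.zv]
  | succ m ih =>
    rw [LT.zv, ih (fun i hi => h i (by omega)), h m (by omega)]
    simp

theorem closeXor_mem {H : Subgroup X} {g ζ : ℕ → X} (hζ : LT.IsLabel ζ) {n k : ℕ}
    {T Lb : ℕ → ℕ → ℕ} {r : ℕ → X} (hF : LT.Facts H g ζ n k T Lb r)
    {rels : List (List ℕ × ℕ)} (hrel : ∀ ρ ∈ rels, ev g ρ.1 = ζ ρ.2) :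
    ∀ (ss : List (ℕ × ℕ)) (μ : ℕ), closeXor T Lb k n rels ss = some μ → ζ μ ∈ H := by
  intro ss
  induction ss with
  | nil =>
    intro μ h
    simp only [closeXor, Option.some.injEq] at h
    subst h
    rw [hζ.zero]
    exact H.one_mem
  | cons s ss ih =>
    intro μ h
    simp only [closeXor] at h
    split at h
    · rename_i ν μ' h1 h2
      simp only [Option.some.injEq] at h
      subst h
      rw [hζ.mul]
      exact H.mul_mem (LT.close_mem hζ hF hrel s ν h1) (ih μ' h2)
    · exact absurd h (by simp)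

/-- One level of the chain. -/
theorem level [Finite X] (g : ℕ → X) (hinv : ∀ j, g j * g (CT2.iv j) = 1)
    (K : Subgroup X) (hKc : ∀ c ∈ K, ∀ x, c * x = x * c) (hKs : ∀ c ∈ K, c * c = 1)
    (n k k₀ : ℕ) (T Lb : ℕ → ℕ → ℕ) (par gam : ℕ → ℕ) (S : List ℕ) (ex ws : List (List ℕ))
    (steps : List (ℕ × ℕ × ℕ)) (E₀ : ℕ) (cl : List (List (ℕ × ℕ)))
    (hpre : LT.preChk n k T Lb par gam S = some E₀)
    (hrun : LT.runSteps T Lb k (relsOf ex ws) E₀ steps = some (2 ^ (n * k) - 1))
    (hcl : closeAll T Lb k n (relsOf ex ws) cl ws.length = true)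
    (hS : ∀ j ∈ S, j < k₀) (hk : k₀ ≤ k)
    (hE : ∀ w ∈ ex, ev g w = 1) (hW : ∀ w ∈ ws, ev g w ∈ K)
    (hinj : ∀ c ∈ closure (g '' Set.Iio k₀), c ∈ K → c = 1) :
    (∀ w ∈ ws, ev g w = 1) ∧
      Nat.card (closure (g '' Set.Iio k)) ∣ n * Nat.card (closure (g '' Set.Iio k₀)) := by
  have hzK : ∀ i, ev g (ws.getD i []) ∈ K := by
    intro i
    rw [List.getD_eq_getElem?_getD]
    cases hi : ws[i]? with
    | none => exact K.one_mem
    | some w => exact hW w (List.mem_of_getElem? hi)
  have hζ := LT.isLabel_zv (fun i => ev g (ws.getD i [])) (fun i x => hKc _ (hzK i) x)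
    (fun i => hKs _ (hzK i)) ws.length
  have hrel : ∀ ρ ∈ relsOf ex ws,
      ev g ρ.1 = LT.zv (fun i => ev g (ws.getD i [])) ws.length ρ.2 := by
    intro ρ hρ
    rw [relsOf, List.mem_append] at hρ
    rcases hρ with hρ | hρ
    · rw [List.mem_map] at hρ
      obtain ⟨w, hw, rfl⟩ := hρ
      rw [hζ.zero]
      exact hE w hw
    · obtain ⟨j, hj, rfl⟩ := mem_labW ws 0 ρ hρ
      rw [zv_two_pow, zero_add, if_pos hj]
  have hSH : ∀ j ∈ S, g j ∈ closure (g '' Set.Iio k₀) := fun j hj =>
    subset_closure ⟨j, hS j hj, rfl⟩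
  have hF := LT.facts g _ hζ hinv n k T Lb par gam S (relsOf ex ws) steps E₀ hpre hrun
    (closure (g '' Set.Iio k₀)) hSH hrel
  have hz1 : ∀ i < ws.length, ev g (ws.getD i []) = 1 := by
    intro i hi
    have h1 := List.all_eq_true.1 hcl i (List.mem_range.2 hi)
    rw [beq_iff_eq] at h1
    have h2 := closeXor_mem hζ hF hrel _ _ h1
    rw [zv_two_pow, if_pos hi] at h2
    exact hinj _ h2 (hzK i)
  refine ⟨?_, ?_⟩
  · intro w hw
    obtain ⟨i, hi, rfl⟩ := List.getElem_of_mem hw
    have := hz1 i hi
    rwa [List.getD_eq_getElem?_getD, List.getElem?_eq_getElem hi] at this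
  · have hζ1 : ∀ a, LT.zv (fun i => ev g (ws.getD i [])) ws.length a = 1 :=
      zv_eq_one _ _ hz1
    exact LT.card_dvd hinv hF (closure (g '' Set.Iio k₀)) le_rfl
      (fun a => by rw [hζ1]; exact Subgroup.one_mem _)
      (closure_mono (Set.image_mono (fun j hj => lt_of_lt_of_le hj hk)))

end

end Level

end Cfsg.Agent.Helper89
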