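import Cfsg.Agent.Helper7.M12Gens
import Cfsg.Agent.Helper7.OutM23
import Cfsg.Agent.Helper89.Level

/-!
# Words in explicit permutations of the 24 points, evaluated on table codes (helper89)

Glue between the abstract word machinery (`ev`, `gl`) and the table codes of `Helper7`
(`IsTbl`, `comp`, `permOf`): a word in permutations given by codes is evaluated on the codes, so
that relations, membership and generation statements reduce to kernel computations.
-/

set_option autoImplicit false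

namespace Cfsg.Agent.Helper89.MConc

open Cfsg Subgroup

/-- Code of the value of a word; `cs` lists the codes of the symbols. -/
def evC (cs : List ℕ) : List ℕ → ℕ
  | [] => Helper7.idCode
  | j :: w => Helper7.comp (cs.getD j Helper7.idCode) (evC cs w)

theorem isTbl_ev (f : ℕ → Equiv.Perm GolayPt) (cs : List ℕ)
    (h : ∀ j, Helper7.IsTbl (f j) (cs.getD j Helper7.idCode)) (w : List ℕ) :
    Helper7.IsTbl (ev f w) (evC cs w) := by
  induction w with
  | nil => exact Helper7.IsTbl.one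
  | cons j w ih => exact (h j).mul ih

theorem isTbl_inv {g : Equiv.Perm GolayPt} {c c' : ℕ} (hg : Helper7.IsTbl g c)
    (hv : Helper7.validCode c' = true) (h : Helper7.comp c c' = Helper7.idCode) :
    Helper7.IsTbl g⁻¹ c' := by
  have h1 := hg.mul (Helper7.isTbl_permOf hv)
  rw [h] at h1
  have h2 : g * Helper7.permOf c' = 1 := h1.eq Helper7.IsTbl.one
  have h3 : g⁻¹ = Helper7.permOf c' := inv_eq_of_mul_eq_one_right h2
  rw [h3]
  exact Helper7.isTbl_permOf hv

theorem ne_of_tbl {g h : Equiv.Perm GolayPt} {c d : ℕ} (hg : Helper7.IsTbl g c)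
    (hh : Helper7.IsTbl h d) {j : ℕ} (hj : j < 24) (hne : Helper7.tbl c j ≠ Helper7.tbl d j) :
    g ≠ h := by
  rintro rfl
  apply hne
  have h1 := hg (Helper7.pt j)
  have h2 := hh (Helper7.pt j)
  rw [Helper7.idx_pt hj] at h1 h2
  rw [← h1, ← h2]

/-- The interleaved list of codes of a list of pairs (code, code of the inverse). -/
def flat : List (ℕ × ℕ) → List ℕ
  | [] => []
  | p :: cs => p.1 :: p.2 :: flat cs

/-- The permutations with the first codes of a list of pairs. -/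
noncomputable def permsOf (cs : List (ℕ × ℕ)) : List (Equiv.Perm GolayPt) :=
  cs.map fun p => Helper7.permOf p.1

/-- A list of pairs of valid codes, the second the inverse of the first. -/
def pairsOK (cs : List (ℕ × ℕ)) : Bool :=
  cs.all fun p => Helper7.validCode p.1 && Helper7.validCode p.2 &&
    Nat.beq (Helper7.comp p.1 p.2) Helper7.idCode

theorem gl_nil {G : Type*} [Group G] (j : ℕ) : gl ([] : List G) j = 1 := by
  unfold gl
  split <;> simp

theorem gl_cons_add_two {G : Type*} [Group G] (x : G) (l : List G) (j : ℕ) :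
    gl (x :: l) (j + 2) = gl l j := by
  unfold gl
  have h1 : (j + 2) % 2 = j % 2 := by omega
  have h2 : (j + 2) / 2 = j / 2 + 1 := by omega
  rw [h1, h2, List.getD_cons_succ]

theorem gl_cons_zero {G : Type*} [Group G] (x : G) (l : List G) : gl (x :: l) 0 = x := by
  unfold gl
  simp

theorem gl_cons_one {G : Type*} [Group G] (x : G) (l : List G) : gl (x :: l) 1 = x⁻¹ := by
  unfold gl
  simp

theorem pairsOK_spec {cs : List (ℕ × ℕ)} (h : pairsOK cs = true) :
    ∀ p ∈ cs, Helper7.validCode p.1 = true ∧ Helper7.validCode p.2 = true ∧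
      Helper7.comp p.1 p.2 = Helper7.idCode := by
  intro p hp
  have h1 := List.all_eq_true.1 h p hp
  rw [Bool.and_eq_true, Bool.and_eq_true] at h1
  exact ⟨h1.1.1, h1.1.2, Nat.eq_of_beq_eq_true h1.2⟩

theorem isTbl_gl_aux (cs : List (ℕ × ℕ))
    (h : ∀ p ∈ cs, Helper7.validCode p.1 = true ∧ Helper7.validCode p.2 = true ∧
      Helper7.comp p.1 p.2 = Helper7.idCode) :
    ∀ j, Helper7.IsTbl (gl (permsOf cs) j) ((flat cs).getD j Helper7.idCode) := by
  induction cs with
  | nil =>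
    intro j
    have e : permsOf [] = [] := rfl
    have e' : flat [] = [] := rfl
    rw [e, e', gl_nil, List.getD_nil]
    exact Helper7.IsTbl.one
  | cons p cs ih =>
    obtain ⟨hv, hv', hcc⟩ := h p List.mem_cons_self
    have e : permsOf (p :: cs) = Helper7.permOf p.1 :: permsOf cs := List.map_cons
    have e' : flat (p :: cs) = p.1 :: p.2 :: flat cs := rfl
    intro j
    rw [e, e']
    match j with
    | 0 =>
      rw [gl_cons_zero, List.getD_cons_zero]
      exact Helper7.isTbl_permOf hv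
    | 1 =>
      rw [gl_cons_one, List.getD_cons_succ, List.getD_cons_zero]
      exact isTbl_inv (Helper7.isTbl_permOf hv) hv' hcc
    | j + 2 =>
      rw [gl_cons_add_two, List.getD_cons_succ, List.getD_cons_succ]
      exact ih (fun q hq => h q (List.mem_cons_of_mem _ hq)) j

theorem isTbl_gl (cs : List (ℕ × ℕ)) (h : pairsOK cs = true) :
    ∀ j, Helper7.IsTbl (gl (permsOf cs) j) ((flat cs).getD j Helper7.idCode) :=
  isTbl_gl_aux cs (pairsOK_spec h)

section sub
variable (H : Subgroup (Equiv.Perm GolayPt)) (l : List H) (cs : List (ℕ × ℕ))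

theorem coe_ev (hl : l.map H.subtype = permsOf cs) (w : List ℕ) :
    ((ev (gl l) w : H) : Equiv.Perm GolayPt) = ev (gl (permsOf cs)) w := by
  have h := map_ev H.subtype (gl l) w
  rw [← hl]
  exact h.trans (ev_congr (fun j => map_gl H.subtype l j) w)

theorem isTbl_coe_ev (hl : l.map H.subtype = permsOf cs) (hcs : pairsOK cs = true) (w : List ℕ) :
    Helper7.IsTbl ((ev (gl l) w : H) : Equiv.Perm GolayPt) (evC (flat cs) w) := by
  rw [coe_ev H l cs hl]
  exact isTbl_ev _ (flat cs) (isTbl_gl cs hcs) w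

theorem ev_eq_one (hl : l.map H.subtype = permsOf cs) (hcs : pairsOK cs = true) (w : List ℕ)
    (hw : evC (flat cs) w = Helper7.idCode) : ev (gl l) w = 1 := by
  apply Subtype.ext
  have h := isTbl_coe_ev H l cs hl hcs w
  rw [hw] at h
  exact h.eq Helper7.IsTbl.one

/-- All words of a list are relators, by a computation on codes. -/
theorem rels_hold (hl : l.map H.subtype = permsOf cs) (hcs : pairsOK cs = true)
    (ws : List (List ℕ))
    (hws : ws.all (fun w => Nat.beq (evC (flat cs) w) Helper7.idCode) = true) :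
    ∀ w ∈ ws, ev (gl l) w = 1 := by
  intro w hw
  exact ev_eq_one H l cs hl hcs w (Nat.eq_of_beq_eq_true (List.all_eq_true.1 hws w hw))

theorem ev_ne_one (hl : l.map H.subtype = permsOf cs) (hcs : pairsOK cs = true) (w : List ℕ)
    (j : ℕ) (hj : j < 24) (hne : Helper7.tbl (evC (flat cs) w) j ≠ j) : ev (gl l) w ≠ 1 := by
  intro h
  have h1 := isTbl_coe_ev H l cs hl hcs w
  rw [h] at h1
  exact Helper7.ne_one_of_tbl h1 hj hne rfl

theorem ev_ne_ev (hl : l.map H.subtype = permsOf cs) (hcs : pairsOK cs = true) (w w' : List ℕ)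
    (j : ℕ) (hj : j < 24) (hne : Helper7.tbl (evC (flat cs) w) j ≠ Helper7.tbl (evC (flat cs) w') j) :
    ev (gl l) w ≠ ev (gl l) w' := by
  intro h
  have h1 := isTbl_coe_ev H l cs hl hcs w
  have h2 := isTbl_coe_ev H l cs hl hcs w'
  rw [h] at h1
  exact ne_of_tbl h1 h2 hj hne rfl

end sub

theorem ev_mem_closure {G : Type*} [Group G] (g : ℕ → G) (k : ℕ) (w : List ℕ)
    (hw : ∀ j ∈ w, j < k) : ev g w ∈ closure (g '' Set.Iio k) := by
  induction w with
  | nil => exact one_mem _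
  | cons j w ih =>
    exact mul_mem (subset_closure ⟨j, hw j List.mem_cons_self, rfl⟩)
      (ih fun i hi => hw i (List.mem_cons_of_mem _ hi))

/-- Generation: `H` lies in the closure of a set `S` all of whose elements are values of words. -/
theorem closure_eq_top (H : Subgroup (Equiv.Perm GolayPt)) (l : List H) (cs : List (ℕ × ℕ))
    (hl : l.map H.subtype = permsOf cs) (hcs : pairsOK cs = true) (k : ℕ)
    (S : Set (Equiv.Perm GolayPt)) (hS : H ≤ closure S)
    (hw : ∀ s ∈ S, ∃ w : List ℕ, (∀ j ∈ w, j < k) ∧ Helper7.IsTbl s (evC (flat cs) w)) :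
    closure (gl l '' Set.Iio k) = ⊤ := by
  rw [eq_top_iff]
  intro x _
  have h1 : closure S ≤ (closure (gl l '' Set.Iio k)).map H.subtype := by
    rw [closure_le]
    intro s hs
    obtain ⟨w, hwk, hws⟩ := hw s hs
    refine ⟨ev (gl l) w, ev_mem_closure _ k w hwk, ?_⟩
    exact (isTbl_coe_ev H l cs hl hcs w).eq hws
  obtain ⟨y, hy, hyx⟩ := h1 (hS x.2)
  have : y = x := Subtype.ext hyx
  rwa [← this]

/-! ### Membership by codes -/

theorem fix_none {g : Equiv.Perm GolayPt} {c : ℕ} (hg : Helper7.IsTbl g c)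
    (h : Helper7.tbl c 23 = 23) : g none = none := by
  have h1 := hg.apply_pt (j := 23) (by norm_num)
  rwa [h, Helper7.pt_23] at h1

theorem fix_zero {g : Equiv.Perm GolayPt} {c : ℕ} (hg : Helper7.IsTbl g c)
    (h : Helper7.tbl c 0 = 0) : g (some 0) = some 0 := by
  have h1 := hg.apply_pt (j := 0) (by norm_num)
  rw [h] at h1
  have h0 : Helper7.pt 0 = some 0 := by decide
  rwa [h0] at h1

theorem mem_M23_of_code {c : ℕ} (h1 : Helper7.codeM24 c = true) (h2 : Helper7.tbl c 23 = 23) :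
    Helper7.permOf c ∈ Spor.M23 :=
  Helper7.mem_M23_iff.2 ⟨Helper7.permOf_mem_M24 h1, fix_none (Helper7.isTbl_of_codeM24 h1) h2⟩

theorem mem_M11_of_code {c : ℕ} (h1 : Helper7.codeM24 c = true)
    (h2 : Helper7.pm c Helper7.dMask = Helper7.dMask) (h3 : Helper7.tbl c 0 = 0) :
    Helper7.permOf c ∈ Spor.M11 :=
  Helper7.mem_M11_iff.2 ⟨Helper7.mem_M12_of (Helper7.permOf_mem_M24 h1)
    (Helper7.smul_dMask_of_tbl (Helper7.isTbl_of_codeM24 h1) h2),
    fix_zero (Helper7.isTbl_of_codeM24 h1) h3⟩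

/-! ### From word relations to the hypotheses of the transfer lemmas -/

section abs
variable {G : Type*} [Group G]

theorem not_mem_zpowers_of {a b : G} (ha : a ^ 3 = 1) (h1 : b ≠ 1) (h2 : b ≠ a) (h3 : b ≠ a⁻¹) :
    b ∉ zpowers a := by
  intro hb
  obtain ⟨k, hk⟩ := Subgroup.mem_zpowers_iff.1 hb
  have hk' : a ^ (k % 3) = b := by
    rw [← hk]
    exact (zpow_eq_zpow_emod (n := 3) k (by exact_mod_cast ha)).symm
  have hlo : 0 ≤ k % 3 := Int.emod_nonneg k (by norm_num)
  have hhi : k % 3 < 3 := Int.emod_lt_of_pos k (by norm_num)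
  obtain ⟨m, hm⟩ : ∃ m : ℕ, k % 3 = m := ⟨(k % 3).toNat, (Int.toNat_of_nonneg hlo).symm⟩
  rw [hm, zpow_natCast] at hk'
  have hm3 : m < 3 := by omega
  interval_cases m
  · exact h1 (by rw [← hk', pow_zero])
  · exact h2 (by rw [← hk', pow_one])
  · apply h3
    rw [← hk']
    apply eq_inv_of_mul_eq_one_left
    rw [← pow_succ]
    exact ha

/-- The relators encoding the hypotheses of the rank-two transfer lemma. -/
def ws2 : List (List ℕ) := [[0, 0, 0], [2, 2, 2], [0, 2, 1, 3], [4, 0, 5, 0], [4, 2, 5, 3]]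

theorem rank_two_of_words (a b t : G) (h : ∀ w ∈ ws2, ev (gl [a, b, t]) w = 1) :
    a ^ 3 = 1 ∧ b ^ 3 = 1 ∧ a * b = b * a ∧ t * a * t⁻¹ = a⁻¹ ∧ t * b * t⁻¹ = b := by
  have h1 : a * (a * (a * 1)) = 1 := h [0, 0, 0] (by simp [ws2])
  have h2 : b * (b * (b * 1)) = 1 := h [2, 2, 2] (by simp [ws2])
  have h3 : a * (b * (a⁻¹ * (b⁻¹ * 1))) = 1 := h [0, 2, 1, 3] (by simp [ws2])
  have h4 : t * (a * (t⁻¹ * (a * 1))) = 1 := h [4, 0, 5, 0] (by simp [ws2])
  have h5 : t * (b * (t⁻¹ * (b⁻¹ * 1))) = 1 := h [4, 2, 5, 3] (by simp [ws2])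
  refine ⟨?_, ?_, ?_, ?_, ?_⟩
  · rw [← h1, mul_one, pow_succ, pow_two, mul_assoc]
  · rw [← h2, mul_one, pow_succ, pow_two, mul_assoc]
  · apply mul_inv_eq_one.1
    rw [← h3]; group
  · apply eq_inv_of_mul_eq_one_left
    rw [← h4]; group
  · apply mul_inv_eq_one.1
    rw [← h5]; group

/-- The relators encoding the hypotheses of the extraspecial transfer lemma. -/
def ws3 : List (List ℕ) := [[0, 0, 0], [2, 2, 2], [0, 2, 1, 3, 0, 2, 0, 3, 1, 1],
  [0, 2, 1, 3, 2, 2, 0, 3, 1, 3], [4, 0, 5, 0], [4, 2, 5, 2]]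

theorem extra_of_words (a b n : G) (h : ∀ w ∈ ws3, ev (gl [a, b, n]) w = 1) :
    a ^ 3 = 1 ∧ b ^ 3 = 1 ∧ (a * b * a⁻¹ * b⁻¹) * a = a * (a * b * a⁻¹ * b⁻¹) ∧
      (a * b * a⁻¹ * b⁻¹) * b = b * (a * b * a⁻¹ * b⁻¹) ∧ n * a * n⁻¹ = a⁻¹ ∧
      n * b * n⁻¹ = b⁻¹ := by
  have h1 : a * (a * (a * 1)) = 1 := h [0, 0, 0] (by simp [ws3])
  have h2 : b * (b * (b * 1)) = 1 := h [2, 2, 2] (by simp [ws3])
  have h3 : a * (b * (a⁻¹ * (b⁻¹ * (a * (b * (a * (b⁻¹ * (a⁻¹ * (a⁻¹ * 1))))))))) = 1 :=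
    h [0, 2, 1, 3, 0, 2, 0, 3, 1, 1] (by simp [ws3])
  have h4 : a * (b * (a⁻¹ * (b⁻¹ * (b * (b * (a * (b⁻¹ * (a⁻¹ * (b⁻¹ * 1))))))))) = 1 :=
    h [0, 2, 1, 3, 2, 2, 0, 3, 1, 3] (by simp [ws3])
  have h5 : n * (a * (n⁻¹ * (a * 1))) = 1 := h [4, 0, 5, 0] (by simp [ws3])
  have h6 : n * (b * (n⁻¹ * (b * 1))) = 1 := h [4, 2, 5, 2] (by simp [ws3])
  refine ⟨?_, ?_, ?_, ?_, ?_, ?_⟩
  · rw [← h1, mul_one, pow_succ, pow_two, mul_assoc]
  · rw [← h2, mul_one, pow_succ, pow_two, mul_assoc]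
  · apply mul_inv_eq_one.1
    rw [← h3]; group
  · apply mul_inv_eq_one.1
    rw [← h4]; group
  · apply eq_inv_of_mul_eq_one_left
    rw [← h5]; group
  · apply eq_inv_of_mul_eq_one_left
    rw [← h6]; group

end abs

/-! ### Prime divisors of the orders -/

theorem prime_dvd_cases {p : ℕ} (hp : p.Prime)
    (h : p ∣ 2 ^ 10 * 3 ^ 3 * 5 * 7 * 11 * 23) :
    p = 2 ∨ p = 3 ∨ p = 5 ∨ p = 7 ∨ p = 11 ∨ p = 23 := by
  have e : ∀ {q : ℕ}, q.Prime → p ∣ q → p = q := fun hq hd =>
    (Nat.prime_dvd_prime_iff_eq hp hq).1 hd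
  rcases (Nat.Prime.dvd_mul hp).1 h with h | h
  · rcases (Nat.Prime.dvd_mul hp).1 h with h | h
    · rcases (Nat.Prime.dvd_mul hp).1 h with h | h
      · rcases (Nat.Prime.dvd_mul hp).1 h with h | h
        · rcases (Nat.Prime.dvd_mul hp).1 h with h | h
          · exact Or.inl (e Nat.prime_two (hp.dvd_of_dvd_pow h))
          · exact Or.inr (Or.inl (e Nat.prime_three (hp.dvd_of_dvd_pow h)))
        · exact Or.inr (Or.inr (Or.inl (e (by norm_num) h)))
      · exact Or.inr (Or.inr (Or.inr (Or.inl (e (by norm_num) h))))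
    · exact Or.inr (Or.inr (Or.inr (Or.inr (Or.inl (e (by norm_num) h)))))
  · exact Or.inr (Or.inr (Or.inr (Or.inr (Or.inr (e (by norm_num) h)))))

/-- For a divisor `N` of `|M24|` and a prime `p` other than 2 and 3, `p ^ 2` does not divide
`N`. -/
theorem not_sq_dvd {N p : ℕ} (hN : N ∣ 2 ^ 10 * 3 ^ 3 * 5 * 7 * 11 * 23) (hp : p.Prime)
    (h2 : p ≠ 2) (h3 : p ≠ 3) : ¬ p ^ 2 ∣ N := by
  intro h
  have h' : p ^ 2 ∣ 2 ^ 10 * 3 ^ 3 * 5 * 7 * 11 * 23 := h.trans hN
  rcases prime_dvd_cases hp ((dvd_pow_self p (by norm_num)).trans h') with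
    rfl | rfl | rfl | rfl | rfl | rfl
  · exact h2 rfl
  · exact h3 rfl
  all_goals exact absurd h' (by decide)

end Cfsg.Agent.Helper89.MConc
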