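import Cfsg.Agent.Helper57.F8
import Cfsg.Agent.Helper60.SzGroup
import Cfsg.Agent.Helper89.CovTools

/-!
# Computing in the Suzuki group `Sz(8)` (helper89)

4×4 matrices over the concrete field `Helper57.F8` as 16-tuples with strict multiplication, the
elements of `Lie.Sz F 4` they define for a field `F` isomorphic to `F8`, evaluation of words, and
generation of `Lie.Sz F 4` via the Bruhat decomposition of `Helper60.SzGroup`.
-/

set_option autoImplicit false
set_option linter.unusedSectionVars false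

namespace Cfsg.Agent.Helper89.Sz8

open Cfsg.Agent.Helper57 (F8)
open Cfsg.Agent.Helper60
open Cfsg.Agent.S3639 (gi Jm)
open Subgroup

/-- A 4×4 matrix over `F8` as a 16-tuple. -/
structure M16 where
  a00 : F8
  a01 : F8
  a02 : F8
  a03 : F8
  a10 : F8
  a11 : F8
  a12 : F8
  a13 : F8
  a20 : F8
  a21 : F8
  a22 : F8
  a23 : F8
  a30 : F8
  a31 : F8
  a32 : F8
  a33 : F8
  deriving DecidableEq

namespace M16

def mul (x y : M16) : M16 :=
  ⟨x.a00 * y.a00 + x.a01 * y.a10 + x.a02 * y.a20 + x.a03 * y.a30,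
   x.a00 * y.a01 + x.a01 * y.a11 + x.a02 * y.a21 + x.a03 * y.a31,
   x.a00 * y.a02 + x.a01 * y.a12 + x.a02 * y.a22 + x.a03 * y.a32,
   x.a00 * y.a03 + x.a01 * y.a13 + x.a02 * y.a23 + x.a03 * y.a33,
   x.a10 * y.a00 + x.a11 * y.a10 + x.a12 * y.a20 + x.a13 * y.a30,
   x.a10 * y.a01 + x.a11 * y.a11 + x.a12 * y.a21 + x.a13 * y.a31,
   x.a10 * y.a02 + x.a11 * y.a12 + x.a12 * y.a22 + x.a13 * y.a32,
   x.a10 * y.a03 + x.a11 * y.a13 + x.a12 * y.a23 + x.a13 * y.a33,
   x.a20 * y.a00 + x.a21 * y.a10 + x.a22 * y.a20 + x.a23 * y.a30,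
   x.a20 * y.a01 + x.a21 * y.a11 + x.a22 * y.a21 + x.a23 * y.a31,
   x.a20 * y.a02 + x.a21 * y.a12 + x.a22 * y.a22 + x.a23 * y.a32,
   x.a20 * y.a03 + x.a21 * y.a13 + x.a22 * y.a23 + x.a23 * y.a33,
   x.a30 * y.a00 + x.a31 * y.a10 + x.a32 * y.a20 + x.a33 * y.a30,
   x.a30 * y.a01 + x.a31 * y.a11 + x.a32 * y.a21 + x.a33 * y.a31,
   x.a30 * y.a02 + x.a31 * y.a12 + x.a32 * y.a22 + x.a33 * y.a32,
   x.a30 * y.a03 + x.a31 * y.a13 + x.a32 * y.a23 + x.a33 * y.a33⟩

def one : M16 := ⟨1, 0, 0, 0, 0, 1, 0, 0, 0, 0, 1, 0, 0, 0, 0, 1⟩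

def toMat (x : M16) : Matrix (Fin 4) (Fin 4) F8 :=
  !![x.a00, x.a01, x.a02, x.a03;
     x.a10, x.a11, x.a12, x.a13;
     x.a20, x.a21, x.a22, x.a23;
     x.a30, x.a31, x.a32, x.a33]

def ofMat (A : Matrix (Fin 4) (Fin 4) F8) : M16 :=
  ⟨A 0 0, A 0 1, A 0 2, A 0 3, A 1 0, A 1 1, A 1 2, A 1 3, A 2 0, A 2 1, A 2 2, A 2 3, A 3 0, A 3 1, A 3 2, A 3 3⟩

theorem ofMat_toMat (x : M16) : ofMat (toMat x) = x := rfl

theorem toMat_injective : Function.Injective toMat := fun x y h => by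
  rw [← ofMat_toMat x, ← ofMat_toMat y, h]

theorem toMat_mul (x y : M16) : (x.mul y).toMat = x.toMat * y.toMat := by
  ext i j
  fin_cases i <;> fin_cases j <;>
    simp [mul, toMat, Matrix.mul_apply, Fin.sum_univ_four]

theorem toMat_one : one.toMat = 1 := by
  ext i j
  fin_cases i <;> fin_cases j <;> simp [one, toMat]

theorem mul_assoc' (x y z : M16) : (x.mul y).mul z = x.mul (y.mul z) :=
  toMat_injective (by simp only [toMat_mul, Matrix.mul_assoc])

theorem one_mul' (x : M16) : one.mul x = x :=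
  toMat_injective (by rw [toMat_mul, toMat_one, Matrix.one_mul])

/-- The adjoint for the form of `Sp₄`. -/
def gi16 (x : M16) : M16 :=
  ⟨x.a33, x.a23, x.a13, x.a03, x.a32, x.a22, x.a12, x.a02, x.a31, x.a21, x.a11, x.a01, x.a30, x.a20, x.a10, x.a00⟩

theorem toMat_gi (x : M16) : (gi16 x).toMat = gi x.toMat := by
  ext i j
  fin_cases i <;> fin_cases j <;> rfl

/-- The matrix of 2×2 minors. -/
def star16 (x : M16) : M16 :=
  ⟨x.a00 * x.a11 - x.a10 * x.a01,
   x.a00 * x.a12 - x.a10 * x.a02,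
   x.a01 * x.a13 - x.a11 * x.a03,
   x.a02 * x.a13 - x.a12 * x.a03,
   x.a00 * x.a21 - x.a20 * x.a01,
   x.a00 * x.a22 - x.a20 * x.a02,
   x.a01 * x.a23 - x.a21 * x.a03,
   x.a02 * x.a23 - x.a22 * x.a03,
   x.a10 * x.a31 - x.a30 * x.a11,
   x.a10 * x.a32 - x.a30 * x.a12,
   x.a11 * x.a33 - x.a31 * x.a13,
   x.a12 * x.a33 - x.a32 * x.a13,
   x.a20 * x.a31 - x.a30 * x.a21,
   x.a20 * x.a32 - x.a30 * x.a22,
   x.a21 * x.a33 - x.a31 * x.a23,
   x.a22 * x.a33 - x.a32 * x.a23⟩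

theorem toMat_star (x : M16) : (star16 x).toMat = Cfsg.Lie.star4 x.toMat := by
  ext i j
  fin_cases i <;> fin_cases j <;> rfl

def frob16 (x : M16) : M16 :=
  ⟨x.a00 ^ 4, x.a01 ^ 4, x.a02 ^ 4, x.a03 ^ 4, x.a10 ^ 4, x.a11 ^ 4, x.a12 ^ 4, x.a13 ^ 4, x.a20 ^ 4, x.a21 ^ 4, x.a22 ^ 4, x.a23 ^ 4, x.a30 ^ 4, x.a31 ^ 4, x.a32 ^ 4, x.a33 ^ 4⟩

theorem toMat_frob (x : M16) : (frob16 x).toMat = x.toMat.map (fun t => t ^ 4) := by
  ext i j
  fin_cases i <;> fin_cases j <;> rfl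

/-- The matrix lies in the Suzuki group. -/
def ok (x : M16) : Bool := decide ((gi16 x).mul x = one) && decide (star16 x = frob16 x)

/-- Strict evaluation of a field element. -/
def seq {α : Type} (x : F8) (k : F8 → α) : α :=
  match x with
  | ⟨false, false, false⟩ => k ⟨false, false, false⟩
  | ⟨true, false, false⟩ => k ⟨true, false, false⟩
  | ⟨false, true, false⟩ => k ⟨false, true, false⟩
  | ⟨true, true, false⟩ => k ⟨true, true, false⟩
  | ⟨false, false, true⟩ => k ⟨false, false, true⟩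
  | ⟨true, false, true⟩ => k ⟨true, false, true⟩
  | ⟨false, true, true⟩ => k ⟨false, true, true⟩
  | ⟨true, true, true⟩ => k ⟨true, true, true⟩

theorem seq_eq {α : Type} (x : F8) (k : F8 → α) : seq x k = k x := by
  rcases x with ⟨a, b, c⟩
  cases a <;> cases b <;> cases c <;> rfl

/-- Strict multiplication in continuation-passing style. -/
def mulK {α : Type} (x y : M16) (k : M16 → α) : α :=
  seq (x.a00 * y.a00 + x.a01 * y.a10 + x.a02 * y.a20 + x.a03 * y.a30) fun b00 =>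
  seq (x.a00 * y.a01 + x.a01 * y.a11 + x.a02 * y.a21 + x.a03 * y.a31) fun b01 =>
  seq (x.a00 * y.a02 + x.a01 * y.a12 + x.a02 * y.a22 + x.a03 * y.a32) fun b02 =>
  seq (x.a00 * y.a03 + x.a01 * y.a13 + x.a02 * y.a23 + x.a03 * y.a33) fun b03 =>
  seq (x.a10 * y.a00 + x.a11 * y.a10 + x.a12 * y.a20 + x.a13 * y.a30) fun b10 =>
  seq (x.a10 * y.a01 + x.a11 * y.a11 + x.a12 * y.a21 + x.a13 * y.a31) fun b11 =>
  seq (x.a10 * y.a02 + x.a11 * y.a12 + x.a12 * y.a22 + x.a13 * y.a32) fun b12 =>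
  seq (x.a10 * y.a03 + x.a11 * y.a13 + x.a12 * y.a23 + x.a13 * y.a33) fun b13 =>
  seq (x.a20 * y.a00 + x.a21 * y.a10 + x.a22 * y.a20 + x.a23 * y.a30) fun b20 =>
  seq (x.a20 * y.a01 + x.a21 * y.a11 + x.a22 * y.a21 + x.a23 * y.a31) fun b21 =>
  seq (x.a20 * y.a02 + x.a21 * y.a12 + x.a22 * y.a22 + x.a23 * y.a32) fun b22 =>
  seq (x.a20 * y.a03 + x.a21 * y.a13 + x.a22 * y.a23 + x.a23 * y.a33) fun b23 =>
  seq (x.a30 * y.a00 + x.a31 * y.a10 + x.a32 * y.a20 + x.a33 * y.a30) fun b30 =>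
  seq (x.a30 * y.a01 + x.a31 * y.a11 + x.a32 * y.a21 + x.a33 * y.a31) fun b31 =>
  seq (x.a30 * y.a02 + x.a31 * y.a12 + x.a32 * y.a22 + x.a33 * y.a32) fun b32 =>
  seq (x.a30 * y.a03 + x.a31 * y.a13 + x.a32 * y.a23 + x.a33 * y.a33) fun b33 =>
  k ⟨b00, b01, b02, b03, b10, b11, b12, b13, b20, b21, b22, b23, b30, b31, b32, b33⟩

theorem mulK_eq {α : Type} (x y : M16) (k : M16 → α) : mulK x y k = k (x.mul y) := by
  simp only [mulK, seq_eq, mul]

end M16

open M16

/-- The unipotent elements. -/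
def U16 (x y : F8) : M16 :=
  ⟨1, 0, 0, 0, x, 1, 0, 0, y, x ^ 4, 1, 0, x * x * x ^ 4 + x * y + y ^ 4, x * x ^ 4 + y, x, 1⟩

/-- The torus elements. -/
def T16 (a : F8) : M16 :=
  ⟨a, 0, 0, 0, 0, a ^ 4 * a⁻¹, 0, 0, 0, 0, a * a⁻¹ ^ 4, 0, 0, 0, 0, a⁻¹⟩

/-- The Weyl element. -/
def J16 : M16 := ⟨0, 0, 0, 1, 0, 0, 1, 0, 0, 1, 0, 0, 1, 0, 0, 0⟩

section words

variable (bs : List M16)

/-- The matrix of the symbol `j`. -/
def gm (j : ℕ) : M16 :=
  if j % 2 = 0 then bs.getD (j / 2) one else gi16 (bs.getD (j / 2) one)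

/-- Evaluation of a word. -/
def evM : List ℕ → M16
  | [] => one
  | j :: w => (gm bs j).mul (evM w)

/-- Strict evaluation of a word with an accumulator: `acc * w`. -/
def evA : List ℕ → M16 → M16
  | [], acc => acc
  | j :: w, acc => mulK acc (gm bs j) (evA w)

theorem evA_eq (w : List ℕ) (acc : M16) : evA bs w acc = acc.mul (evM bs w) := by
  induction w generalizing acc with
  | nil =>
    show acc = acc.mul one
    apply toMat_injective
    rw [toMat_mul, toMat_one, Matrix.mul_one]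
  | cons j w ih =>
    show mulK acc (gm bs j) (evA bs w) = acc.mul ((gm bs j).mul (evM bs w))
    rw [mulK_eq, ih, mul_assoc']

theorem evA_one (w : List ℕ) : evA bs w one = evM bs w := by
  rw [evA_eq, one_mul']

/-- Relator check. -/
abbrev mok (w : List ℕ) : Bool := decide (evA bs w one = one)

end words

section grp

universe u

variable {F : Type u} [Field F] [CharP F 2] [SzField F 2] (e : F8 ≃+* F)

theorem gi_map (A : Matrix (Fin 4) (Fin 4) F8) : gi (A.map e) = (gi A).map e := rfl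

theorem star_map (A : Matrix (Fin 4) (Fin 4) F8) :
    Cfsg.Lie.star4 (A.map e) = (Cfsg.Lie.star4 A).map e := by
  ext i j
  simp [Cfsg.Lie.star4]

theorem frob_map (A : Matrix (Fin 4) (Fin 4) F8) :
    (A.map (fun t => t ^ 4)).map e = (A.map e).map (th F 2) := by
  ext i j
  simp [th, iterateFrobenius_def]

theorem ok_gi {x : M16} (h : x.ok = true) :
    gi (x.toMat.map e) * x.toMat.map e = 1 := by
  have h1 : (gi16 x).mul x = one := by
    have := Bool.and_eq_true_iff.1 h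
    exact of_decide_eq_true this.1
  rw [gi_map, ← Matrix.map_mul, ← toMat_gi, ← toMat_mul, h1, toMat_one]
  exact Matrix.map_one _ (map_zero e) (map_one e)

theorem ok_star {x : M16} (h : x.ok = true) :
    Cfsg.Lie.star4 (x.toMat.map e) = (x.toMat.map e).map (th F 2) := by
  have h1 : star16 x = frob16 x := by
    have := Bool.and_eq_true_iff.1 h
    exact of_decide_eq_true this.2
  rw [star_map, ← toMat_star, h1, toMat_frob, frob_map]

/-- The element of the Suzuki group with a given matrix (or `1`). -/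
noncomputable def szT (x : M16) : ↥(Cfsg.Lie.Sz F (2 ^ 2)) :=
  if h : x.ok = true then mkSz (x.toMat.map e) (ok_gi e h) (ok_star e h) else 1

theorem mat_szT {x : M16} (h : x.ok = true) : mat (szT e x) = x.toMat.map e := by
  unfold szT
  rw [dif_pos h]
  rfl

theorem map_toMat_one : (one.toMat.map e : Matrix (Fin 4) (Fin 4) F) = 1 := by
  rw [toMat_one]
  exact Matrix.map_one _ (map_zero e) (map_one e)

theorem szT_one : szT e one = (1 : ↥(Cfsg.Lie.Sz F (2 ^ 2))) := by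
  apply mat_injective
  rw [mat_szT e (by decide), mat_one, map_toMat_one]

variable (bs : List M16)

/-- The generators. -/
noncomputable def gsS : List ↥(Cfsg.Lie.Sz F (2 ^ 2)) := bs.map (szT e)

theorem length_gsS : (gsS e bs).length = bs.length := List.length_map _

theorem mat_getD (hbs : bs.all M16.ok = true) (i : ℕ) :
    mat ((gsS e bs).getD i 1) = ((bs.getD i one).toMat.map e : Matrix (Fin 4) (Fin 4) F) := by
  have h1 : (gsS e bs).getD i 1 = szT e (bs.getD i one) := by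
    unfold gsS
    rw [← szT_one e, List.getD_map]
  rw [h1]
  apply mat_szT
  rw [List.getD_eq_getElem?_getD]
  rcases hi : bs[i]? with _ | x
  · rfl
  · exact List.all_eq_true.1 hbs x (List.mem_of_getElem? hi)

theorem mat_gl (hbs : bs.all M16.ok = true) (j : ℕ) :
    mat (gl (gsS e bs) j) = ((gm bs j).toMat.map e : Matrix (Fin 4) (Fin 4) F) := by
  unfold gl gm
  by_cases hj : j % 2 = 0
  · rw [if_pos hj, if_pos hj]
    exact mat_getD e bs hbs _
  · rw [if_neg hj, if_neg hj, mat_inv, mat_getD e bs hbs, toMat_gi, gi_map]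

theorem mat_ev (hbs : bs.all M16.ok = true) (w : List ℕ) :
    mat (ev (gl (gsS e bs)) w) = ((evM bs w).toMat.map e : Matrix (Fin 4) (Fin 4) F) := by
  induction w with
  | nil => exact (map_toMat_one e).symm
  | cons j w ih =>
    show mat (gl (gsS e bs) j * ev (gl (gsS e bs)) w) = (((gm bs j).mul (evM bs w)).toMat.map e)
    rw [mat_mul, mat_gl e bs hbs, ih, toMat_mul, Matrix.map_mul]

theorem eq_ev (hbs : bs.all M16.ok = true) (g : ↥(Cfsg.Lie.Sz F (2 ^ 2))) (w : List ℕ) (x : M16)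
    (hx : evA bs w one = x) (hg : mat g = x.toMat.map e) : g = ev (gl (gsS e bs)) w := by
  apply mat_injective
  rw [hg, mat_ev e bs hbs, ← evA_one, hx]

theorem ev_eq_one (hbs : bs.all M16.ok = true) (w : List ℕ) (h : mok bs w = true) :
    ev (gl (gsS e bs)) w = 1 :=
  (eq_ev e bs hbs 1 w one (of_decide_eq_true h) (by rw [mat_one, map_toMat_one])).symm

theorem rels_hold (hbs : bs.all M16.ok = true) (ws : List (List ℕ))
    (h : ws.all (mok bs) = true) : ∀ w ∈ ws, ev (gl (gsS e bs)) w = 1 := fun w hw =>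
  ev_eq_one e bs hbs w (List.all_eq_true.1 h w hw)

theorem map_U16 (x y : F8) :
    ((U16 x y).toMat.map e : Matrix (Fin 4) (Fin 4) F) = Umat (th F 2) (e x) (e y) := by
  ext i j
  fin_cases i <;> fin_cases j <;>
    simp [toMat, U16, Umat, zf, th, iterateFrobenius_def]

theorem map_T16 (a : F8) :
    ((T16 a).toMat.map e : Matrix (Fin 4) (Fin 4) F) = Tmat (th F 2) (e a) (e a)⁻¹ := by
  ext i j
  fin_cases i <;> fin_cases j <;>
    simp [toMat, T16, Tmat, th, iterateFrobenius_def]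

theorem map_J16 : (J16.toMat.map e : Matrix (Fin 4) (Fin 4) F) = Jm F := by
  ext i j
  fin_cases i <;> fin_cases j <;> simp [toMat, J16, Jm]

/-- Generation of the Suzuki group from words for the Bruhat generators. -/
theorem gen_top (hbs : bs.all M16.ok = true) (k : ℕ) (uw : F8 → F8 → List ℕ) (tw : F8 → List ℕ)
    (jw : List ℕ)
    (hu : ∀ x y : F8, evA bs (uw x y) one = U16 x y ∧ ∀ j ∈ uw x y, j < k)
    (ht : ∀ a : F8, a ≠ 0 → evA bs (tw a) one = T16 a ∧ ∀ j ∈ tw a, j < k)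
    (hj : evA bs jw one = J16 ∧ ∀ j ∈ jw, j < k) :
    closure (gl (gsS e bs) '' Set.Iio k) = ⊤ := by
  have hU : ∀ x y : F, uel F 2 x y ∈ closure (gl (gsS e bs) '' Set.Iio k) := by
    intro x y
    obtain ⟨x, rfl⟩ := e.surjective x
    obtain ⟨y, rfl⟩ := e.surjective y
    rw [eq_ev e bs hbs (uel F 2 (e x) (e y)) (uw x y) (U16 x y) (hu x y).1
      (by rw [mat_uel, map_U16])]
    exact CT.ev_mem_closure' _ _ _ (hu x y).2
  have hT : ∀ a : Fˣ, tel F 2 a ∈ closure (gl (gsS e bs) '' Set.Iio k) := by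
    intro a
    obtain ⟨a', ha'⟩ := e.surjective (a : F)
    have hne : a' ≠ 0 := by
      rintro rfl
      rw [map_zero] at ha'
      exact a.ne_zero ha'.symm
    rw [eq_ev e bs hbs (tel F 2 a) (tw a') (T16 a') (ht a' hne).1
      (by rw [mat_tel, map_T16, ha', Units.val_inv_eq_inv_val])]
    exact CT.ev_mem_closure' _ _ _ (ht a' hne).2
  have hJ : jel F 2 ∈ closure (gl (gsS e bs) '' Set.Iio k) := by
    rw [eq_ev e bs hbs (jel F 2) jw J16 hj.1 (by rw [mat_jel, map_J16])]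
    exact CT.ev_mem_closure' _ _ _ hj.2
  have hB : ∀ g ∈ Bsub F 2, g ∈ closure (gl (gsS e bs) '' Set.Iio k) := by
    intro g hg
    obtain ⟨a, x, y, rfl⟩ := Bsub_eq hg
    exact mul_mem (hU x y) (hT a)
  rw [eq_top_iff]
  intro g _
  rcases mk_cases (QuotientGroup.mk g : ↥(Cfsg.Lie.Sz F (2 ^ 2)) ⧸ Bsub F 2) with h | ⟨w, hw, h⟩
  · rw [QuotientGroup.eq, mul_one] at h
    have := hB _ h
    rwa [inv_mem_iff] at this
  · rw [QuotientGroup.eq] at h
    have h2 := hB _ h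
    have h3 : g = w * jel F 2 * (g⁻¹ * (w * jel F 2))⁻¹ := by group
    rw [h3]
    exact mul_mem (mul_mem (hB w (Usub_le_Bsub hw)) hJ) (inv_mem h2)

end grp

end Cfsg.Agent.Helper89.Sz8
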