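import Cfsg.Agent.Helper89.SzcTab
import Cfsg.Agent.Helper89.SzMat
import Cfsg.Agent.Helper89.StemCover3
import Cfsg.Agent.Helper89.Stem

/-!
# The Schur multiplier of `Sz(8)` is `ℤ/2 × ℤ/2` (helper89)

The cover is the subgroup of `Sz(F, 4) × Sym(1120 × 2)` generated by three pairs, for any field `F`
isomorphic to the concrete field `Helper57.F8`.  The chain certificate `Szc.Ls` gives its order
`4 · |Sz(8)|` and the triviality of the 2-part of its multiplier; the Sylow subgroups for the odd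
primes are cyclic.
-/

set_option autoImplicit false
set_option maxRecDepth 100000
set_option linter.unusedSectionVars false

namespace Cfsg.Agent.Helper89.Szc

open Cfsg Subgroup Sz8 Sz8.M16
open Cfsg.Agent.Helper57 (F8)
open Cfsg.Agent.Helper60

/-- The matrices of the three generators (orders 7, 7, 5). -/
def bs : List M16 := [⟨⟨false, true, false⟩, ⟨false, false, false⟩, ⟨false, false, false⟩, ⟨false, false, false⟩, ⟨false, false, false⟩, ⟨true, true, false⟩, ⟨false, false, false⟩, ⟨false, false, false⟩, ⟨false, false, false⟩, ⟨false, false, false⟩, ⟨false, true, true⟩, ⟨false, false, false⟩, ⟨false, false, false⟩, ⟨false, false, false⟩, ⟨false, false, false⟩, ⟨true, false, true⟩⟩,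
  ⟨⟨false, true, false⟩, ⟨false, false, false⟩, ⟨false, false, false⟩, ⟨false, false, false⟩, ⟨true, false, false⟩, ⟨true, true, false⟩, ⟨false, false, false⟩, ⟨false, false, false⟩, ⟨true, false, false⟩, ⟨true, false, true⟩, ⟨false, true, true⟩, ⟨false, false, false⟩, ⟨true, true, true⟩, ⟨true, true, false⟩, ⟨true, true, false⟩, ⟨true, false, true⟩⟩,
  ⟨⟨true, false, false⟩, ⟨true, false, false⟩, ⟨false, false, false⟩, ⟨true, false, false⟩, ⟨true, false, false⟩, ⟨false, false, false⟩, ⟨true, false, false⟩, ⟨false, false, false⟩, ⟨false, false, false⟩, ⟨true, false, false⟩, ⟨false, false, false⟩, ⟨false, false, false⟩, ⟨true, false, false⟩, ⟨false, false, false⟩, ⟨false, false, false⟩, ⟨false, false, false⟩⟩]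

theorem bs_ok : bs.all M16.ok = true := by decide +kernel

/-- Words for the unipotent elements, indexed by `x + 8 y`. -/
def uwL : List (List ℕ) := [[], [0, 2, 0, 3, 1, 1], [0, 2, 1, 3, 0, 3], [1, 2, 0, 3], [3, 1, 2, 2], [1, 2, 1, 2, 2, 1], [0, 0, 2, 1, 1, 3], [2, 0, 3, 1], [0, 2, 2, 2, 0, 0, 2], [0, 0, 2, 1, 3, 1], [2, 2, 1, 3], [3, 0, 2, 1], [1, 1, 2, 0], [0, 3], [3, 5, 1, 4], [0, 0, 3, 3], [0, 5, 0, 4], [0, 2, 2, 1, 1, 1], [3, 3, 0, 0], [2, 1, 3, 0], [1, 3, 0, 0], [1, 1, 3, 0, 2, 0], [0, 0, 0, 3, 1, 3], [0, 2, 1, 1, 2, 1], [1, 1, 2, 1, 2, 0], [0, 0, 0, 3, 3, 1], [0, 0, 3, 1], [0, 3, 1, 2], [3, 3, 0, 2], [5, 1, 4, 3], [1, 2], [0, 3, 0, 2, 1, 1], [0, 3, 0, 3], [0, 0, 3, 3, 3, 0], [0, 2, 1, 1], [1, 2, 2, 1], [0, 2, 0, 3, 1, 3], [0, 3, 1, 2, 1, 2], [5, 0, 4, 2], [0, 3, 0, 0, 3, 1], [1, 2, 1, 2], [0, 3, 3, 3, 0, 2], [1, 1, 2, 2], [3, 0, 0, 3], [0, 0, 2, 1, 3, 3], [2, 1], [0, 3, 3, 0, 2, 1], [0, 0,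 3, 1, 2, 1], [0, 0, 5, 0, 4, 1], [0, 2, 1, 3, 1, 2], [1, 3, 0, 2], [0, 3, 3, 0], [0, 2, 2, 1, 1, 3], [0, 0, 3, 0, 3, 3], [3, 0], [0, 2, 1, 3], [1, 5, 1, 4], [0, 3, 1, 1, 2, 0], [0, 0, 3, 3, 0, 3], [2, 1, 1, 2], [0, 0, 0, 3, 3, 3], [2, 5, 0, 4], [0, 3, 0, 3, 1, 2], [2, 2, 1, 1]]

/-- Words for the torus elements. -/
def twL : List (List ℕ) := [[], [], [0], [0, 0, 0], [0, 0], [1], [1, 1, 1], [1, 1]]

/-- A word for the Weyl element. -/
def jw : List ℕ := [0, 2, 2, 2, 0, 0, 2, 5]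

def uw (x y : F8) : List ℕ := uwL.getD (x.code + 8 * y.code) []

def tw (a : F8) : List ℕ := twL.getD a.code []

theorem hu : ∀ x y : F8, evA bs (uw x y) one = U16 x y ∧ ∀ j ∈ uw x y, j < 6 := by
  decide +kernel

theorem ht : ∀ a : F8, a ≠ 0 → evA bs (tw a) one = T16 a ∧ ∀ j ∈ tw a, j < 6 := by
  decide +kernel

theorem hj : evA bs jw one = J16 ∧ ∀ j ∈ jw, j < 6 := by decide +kernel

/-! ### The cover -/

def qs : List (Equiv.Perm (Fin 1120 × Fin 2)) :=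
  TP.perms 1120 2 cT cL (by norm_num) (by norm_num) 6 inv_ok hk

theorem qs_length : qs.length = 3 := by
  simp [qs, TP.perms]

universe u

variable {F : Type u} [Field F] [CharP F 2] [SzField F 2] (e : F8 ≃+* F)

theorem genS : closure (gl (gsS e bs) '' Set.Iio 6) = ⊤ :=
  gen_top e bs bs_ok 6 uw tw jw hu ht hj

theorem hlen : (gsS e bs).length = qs.length := by
  rw [length_gsS, qs_length]
  rfl

/-- The generators of the cover. -/
noncomputable abbrev l : List ↥(CP.cov (gsS e bs) qs) := CP.gens (gsS e bs) qs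

theorem cov_rels (ws : List (List ℕ)) (h1 : ws.all (mok bs) = true) (h2 : ws.all rok = true) :
    ∀ w ∈ ws, ev (gl (l e)) w = 1 :=
  CP.rels_hold (gsS e bs) qs (hlen e) ws (rels_hold e bs bs_ok ws h1)
    (TP.rels_hold 1120 2 cT cL _ _ 6 inv_ok hk ws h2)

theorem hE : ∀ w ∈ Chain.powW ps, ev (gl (l e)) w = 1 := cov_rels e _ (by decide +kernel) tab_pw

theorem hW : ∀ d ∈ Ls, ∀ w ∈ d.ws, ev (gl (l e)) w = 1 := by
  intro d hd
  simp only [Ls, List.mem_cons, List.not_mem_nil, or_false] at hd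
  rcases hd with rfl | rfl | rfl
  · intro w hw
    exact absurd hw (by simp [L0])
  · exact cov_rels e _ (by decide +kernel) tab_w1
  · exact cov_rels e _ (by decide +kernel) tab_w2

theorem gen6 : closure (gl (l e) '' Set.Iio 6) = ⊤ := by
  have h := CP.gen_top (gsS e bs) qs (hlen e)
  rw [length_gsS] at h
  exact h

variable [Fintype F]

instance finSz : Finite ↥(Cfsg.Lie.Sz F (2 ^ 2)) := finite_Sz

theorem card_dvd : Nat.card ↥(CP.cov (gsS e bs) qs) ∣ 116480 := by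
  have h := Chain.card_dvd (l e) ps Ls valid chained (hE e) (hW e)
  rw [lastK_eq, gen6, Subgroup.card_top, prodN_eq] at h
  exact h

theorem π_surj : Function.Surjective (CP.covπ (gsS e bs) qs) :=
  CP.π_surj (gsS e bs) qs (hlen e) (by rw [length_gsS]; exact genS e)

theorem card_G (hF : Fintype.card F = 8) : Nat.card ↥(Cfsg.Lie.Sz F (2 ^ 2)) = 29120 := by
  rw [card_Sz, hF]
  norm_num

/-- Two generators of the kernel. -/
noncomputable def ζ₁ : ↥(CP.cov (gsS e bs) qs) := ev (gl (l e)) zw1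

noncomputable def ζ₂ : ↥(CP.cov (gsS e bs) qs) := ev (gl (l e)) zw2

theorem ζ₁_ker : CP.covπ (gsS e bs) qs (ζ₁ e) = 1 := by
  rw [ζ₁, CP.π_ev (gsS e bs) qs (hlen e)]
  exact ev_eq_one e bs bs_ok zw1 (by decide +kernel)

theorem ζ₂_ker : CP.covπ (gsS e bs) qs (ζ₂ e) = 1 := by
  rw [ζ₂, CP.π_ev (gsS e bs) qs (hlen e)]
  exact ev_eq_one e bs bs_ok zw2 (by decide +kernel)

theorem ζ_sq : ζ₁ e ^ 2 = 1 ∧ ζ₂ e ^ 2 = 1 := by
  have h := cov_rels e [CT.rep zw1 2, CT.rep zw2 2] (by decide +kernel) tab_zsq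
  constructor
  · rw [ζ₁, ← CT.ev_rep]
    exact h _ (by simp)
  · rw [ζ₂, ← CT.ev_rep]
    exact h _ (by simp)

theorem ζ₁_central : ∀ x, ζ₁ e * x = x * ζ₁ e :=
  CT.central_of_gens (gl (l e)) 6 (gen6 e) (ζ₁ e)
    (CT.comm_of_words (gl (l e)) (gl_inv (l e)) zw1 3
      (cov_rels e _ (by decide +kernel) tab_zc1))

theorem ζ₂_central : ∀ x, ζ₂ e * x = x * ζ₂ e :=
  CT.central_of_gens (gl (l e)) 6 (gen6 e) (ζ₂ e)
    (CT.comm_of_words (gl (l e)) (gl_inv (l e)) zw2 3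
      (cov_rels e _ (by decide +kernel) tab_zc2))

theorem ζ₁_ne : ζ₁ e ≠ 1 :=
  CP.ev_ne_one (gsS e bs) qs (hlen e) _
    (TP.ev_ne_one 1120 2 cT cL _ _ 6 inv_ok hk _ (by decide +kernel) 0 (by norm_num) tab_z1)

theorem ζ₂_ne : ζ₂ e ≠ 1 :=
  CP.ev_ne_one (gsS e bs) qs (hlen e) _
    (TP.ev_ne_one 1120 2 cT cL _ _ 6 inv_ok hk _ (by decide +kernel) 560 (by norm_num) tab_z2)

theorem ζ₁₂_ne : ζ₁ e * ζ₂ e ≠ 1 := by
  rw [ζ₁, ζ₂, ← ev_append]
  exact CP.ev_ne_one (gsS e bs) qs (hlen e) _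
    (TP.ev_ne_one 1120 2 cT cL _ _ 6 inv_ok hk _ (by decide +kernel) 0 (by norm_num) tab_z12)

theorem hind : ∀ i < 2, ∀ j < 2, ζ₁ e ^ i * ζ₂ e ^ j = 1 → i = 0 ∧ j = 0 := by
  intro i hi j hj h
  interval_cases i <;> interval_cases j
  · exact ⟨rfl, rfl⟩
  · rw [pow_zero, pow_one, one_mul] at h
    exact absurd h (ζ₂_ne e)
  · rw [pow_zero, pow_one, mul_one] at h
    exact absurd h (ζ₁_ne e)
  · rw [pow_one, pow_one] at h
    exact absurd h (ζ₁₂_ne e)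

theorem card_cov (hF : Fintype.card F = 8) : Nat.card ↥(CP.cov (gsS e bs) qs) = 116480 := by
  have h := (Stem.ker_two (CP.covπ (gsS e bs) qs) (π_surj e) 2 2
    (by rw [card_G hF]; exact card_dvd e) (ζ₁ e) (ζ₂ e) (ζ₁_ker e) (ζ₂_ker e) (ζ_sq e).1 (ζ_sq e).2
    (ζ₁_central e) (ζ₂_central e) (hind e)).1
  rw [h, card_G hF]

theorem perfect : commutator ↥(CP.cov (gsS e bs) qs) = ⊤ :=
  Stem.perfect_of_conj (gl (l e)) (gl_inv (l e)) 3 (gen6 e) cj (by decide)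
    (cov_rels e _ (by decide +kernel) tab_cj) (cov_rels e _ (by decide +kernel) tab_cp)

theorem not_sq {p : ℕ} (hp : p.Prime) (h2 : p ≠ 2) : ¬ p ^ 2 ∣ 116480 := by
  intro h
  have hc : Nat.Coprime (p ^ 2) (2 ^ 8) :=
    Nat.Coprime.pow _ _ ((Nat.coprime_primes hp Nat.prime_two).2 h2)
  have h1 : p ^ 2 ∣ 455 := hc.dvd_of_dvd_mul_left (by norm_num; exact h)
  have h3 : p ^ 2 ≤ 455 := Nat.le_of_dvd (by norm_num) h1
  have h4 : p ≤ 21 := by nlinarith
  interval_cases p <;>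
    first | exact absurd h1 (by decide) | exact absurd hp (by decide)

/-- The cover has trivial Schur multiplier. -/
theorem univ (hF : Fintype.card F = 8) (X : Type u) [Group X] [Finite X]
    (τ : X →* ↥(CP.cov (gsS e bs) qs))
    (hτ : Function.Surjective τ) (hc : τ.ker ≤ center X) (hd : τ.ker ≤ commutator X) :
    τ.ker = ⊥ := by
  apply Stem.ker_eq_bot_of_primes
  intro p hp
  by_cases h2 : p = 2
  · subst h2
    exact Chain.two_universal (l e) ps Ls ps_odd valid chained (by rw [card_cov e hF, prodN_eq])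
      (by rw [lastK_eq]; exact gen6 e) (hE e) (hW e) X τ hτ hc hd
  · have : Fact p.Prime := ⟨hp⟩
    exact Stem.not_dvd_card_ker_of_sq τ hc hd p (by rw [card_cov e hF]; exact not_sq hp h2)

/-- The Schur multiplier of `Sz(8)` is `ℤ/2 × ℤ/2`. -/
theorem schurSz (e : F8 ≃+* F) (hF : Fintype.card F = 8) :
    HasSchurMultiplier ↥(Cfsg.Lie.Sz F (2 ^ 2)) (Multiplicative (ZMod 2 × ZMod 2)) :=
  Stem.hasSchurMultiplier_two (CP.covπ (gsS e bs) qs) (π_surj e) 2 2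
    (by rw [card_G hF]; exact card_dvd e) (ζ₁ e) (ζ₂ e) (ζ₁_ker e) (ζ₂_ker e) (ζ_sq e).1 (ζ_sq e).2
    (ζ₁_central e) (ζ₂_central e) (hind e) (perfect e) (univ e hF)

end Cfsg.Agent.Helper89.Szc
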